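import Cfsg.Agent.Fgs1.Ito2
import Cfsg.Agent.SolvStr.Cls1
import Cfsg.Agent.S4127

/-! Groups with conjugacy class sizes `1, m, n, mn` for coprime `m, n`. -/

set_option autoImplicit false
set_option linter.unusedSectionVars false

namespace CF.Fo
open Subgroup CF.BG CF.Fgs1 CF.SolvStr
open scoped commutatorElement

variable {G : Type*} [Group G] [Finite G] {m n p q s : ℕ} {a b g u v w x y z : G}
  {A B : Subgroup G}

theorem nc_transfer (hv : v ∈ A) (pv : PiElt {s} v) (nv : v ∉ center G) (zA : center G ≤ A)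
    {i j : ℕ} (e : ♯A * i = ♯B * j) (hj : PiNat {s}ᶜ j) :
    ∃ w ∈ B, PiElt {s} w ∧ w ∉ center G := by
  obtain ⟨T, hT⟩ := exists_syl s B
  obtain ⟨S, hS, l⟩ := exists_syl_le (zpowers_le.2 hv) (piGrp_zpowers.2 pv)
  by_contra k
  push Not at k
  have lT : T ≤ center G := fun w hw => k w (hT.le hw) (hT.pi.elt hw)
  have TS : T ≤ S := hS.le_of_norm (lT.trans zA) hT.pi
    (Or.inl (lT.trans ((center_le_cent S).trans (cent_le_norm S))))
  have d : ♯S ∣ ♯T := hT.dvd_card ((hS.pi.coprime hj).dvd_of_dvd_mul_right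
    (e ▸ (card_dvd hS.le).mul_right i)) hS.pi
  have := eq_of_le_of_card_ge TS (Nat.le_of_dvd (Nat.pos_of_ne_zero (card_ne_zero' T)) d)
  exact nv (lT (this ▸ l (mem_zpowers v)))

theorem nc_ind (hv : v ∈ 𝐂₁ a) (pv : PiElt {s} v) (nv : v ∉ center G) {i j : ℕ}
    (e : ind b * i = ind a * j) (hj : PiNat {s}ᶜ j) : ∃ w ∈ 𝐂₁ b, PiElt {s} w ∧ w ∉ center G := by
  refine nc_transfer hv pv nv (center_le_cent1 a) (i := i) ?_ hj
  refine Nat.eq_of_mul_eq_mul_right (ind_pos b) ?_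
  rw [mul_assoc, mul_comm i, e, ← mul_assoc, card_mul_ind, mul_right_comm, card_mul_ind]

theorem comm_of (px : PiElt {p} x) (hp : PiNat {p}ᶜ (ind y)) (cop : (ind y).Coprime (ind x)) :
    x ∈ 𝐂₁ y := by
  obtain ⟨P, hP, l⟩ := exists_syl_le (le_top : zpowers x ≤ ⊤) (piGrp_zpowers.2 px)
  obtain ⟨g, hg⟩ := exists_cj_le hP hp
  obtain ⟨k, hk, e⟩ := exists_conj_cent1 cop (conj_mem_cls g x)
  have := hg (mem_cj_iff.2 ⟨x, l (mem_zpowers x), e.symm⟩)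
  simpa [mul_assoc] using mul_mem (mul_mem (inv_mem hk) this) hk

theorem cent_O (hp : PiNat {p}ᶜ (ind y)) : 𝐎 {p} (⊤ : Subgroup G) ≤ 𝐂₁ y :=
  le_cent1_of_coprime (O_normal _ _).norm ((O_pi _ _).coprime hp)

/-- class sizes `1, m, n, mn` -/
structure Four (G : Type*) [Group G] (m n : ℕ) : Prop where
  m1 : 1 < m
  n1 : 1 < n
  cop : m.Coprime n
  all : ∀ x : G, ind x = 1 ∨ ind x = m ∨ ind x = n ∨ ind x = m * n
  em : ∃ x : G, ind x = m
  en : ∃ x : G, ind x = n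
  emn : ∃ x : G, ind x = m * n

namespace Four
variable (h : Four G m n)
include h

theorem symm : Four G n m :=
  ⟨h.n1, h.m1, h.cop.symm, fun x => by have := h.all x; rw [mul_comm]; tauto, h.en, h.em,
    mul_comm m n ▸ h.emn⟩

theorem ndvd : ¬ n ∣ m := fun d => h.n1.ne' (h.cop.symm.eq_one_of_dvd d)

theorem eq_m (nx : x ∉ center G) (d : ind x ∣ m) : ind x = m := by
  rcases h.all x with e | e | e | e
  · exact absurd (ind_eq_one.1 e) nx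
  · exact e
  · exact absurd (e ▸ d) h.ndvd
  · exact absurd ((dvd_mul_left n m).trans (e ▸ d)) h.ndvd

theorem of_m (d : m ∣ ind x) : ind x = m ∨ ind x = m * n := by
  rcases h.all x with e | e | e | e
  · exact absurd (Nat.dvd_one.1 (e ▸ d)) h.m1.ne'
  · exact Or.inl e
  · exact absurd (e ▸ d) h.symm.ndvd
  · exact Or.inr e

theorem m_dvd (nx : x ∉ center G) (e : ind x ≠ n) : m ∣ ind x := by
  rcases h.all x with e | e | e | e
  · exact absurd (ind_eq_one.1 e) nx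
  · exact e.symm.dvd
  · contradiction
  · exact e ▸ dvd_mul_right m n

theorem eq_mn (d : m ∣ ind x) (d' : n ∣ ind x) : ind x = m * n :=
  (h.of_m d).resolve_left fun e => h.ndvd (e ▸ d')

theorem dvd (x : G) : ind x ∣ m * n := by
  rcases h.all x with e | e | e | e <;> rw [e]
  exacts [one_dvd _, dvd_mul_right _ _, dvd_mul_left _ _]

theorem nc (d : m ∣ ind x) : x ∉ center G := fun k =>
  h.m1.ne' (Nat.dvd_one.1 (ind_eq_one.2 k ▸ d))

theorem le_of_mn (e : ind x = m * n) (c : z ∈ 𝐂₁ x) (cop : (orderOf x).Coprime (orderOf z)) :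
    𝐂₁ x ≤ 𝐂₁ z := by
  have c := (mem_cent1.1 c).symm
  have := cent1_eq_of_le ((cent1_mul c cop).le.trans inf_le_left)
    (e ▸ Nat.le_of_dvd (e ▸ ind_pos x) (h.dvd _))
  rw [← this, cent1_mul c cop]
  exact inf_le_right

theorem central (px : PiElt {p} x) (h1 : ¬ p ∣ m) (h2 : ¬ p ∣ n) : x ∈ center G := by
  obtain ⟨P, hP, l⟩ := exists_syl_le (le_top : zpowers x ≤ ⊤) (piGrp_zpowers.2 px)
  refine syl_le_center hP (fun y r hr d e => ?_) (l (mem_zpowers x))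
  obtain rfl : r = p := e
  exact ((hr.dvd_mul).1 (d.trans (h.dvd y))).elim h1 h2

theorem exists_m : ∃ p x, p.Prime ∧ PiElt {p} (x : G) ∧ ind x = m := by
  obtain ⟨g, hg⟩ := h.em
  obtain ⟨p, hp, x, hx, px, nx⟩ := exists_prime_part (h.nc hg.symm.dvd)
  exact ⟨p, x, hp, px, h.eq_m nx (hg ▸ ind_dvd_of_le (Fgs1.cent1_le_of_mem_zpowers hx))⟩

theorem card_inf (px : PiElt {p} x) (ix : ind x = m) (hu : u ∈ 𝐂₁ x) (pu : PiElt {p}ᶜ u)
    (nu : u ∉ 𝐂 (𝐂₁ x)) : ♯(𝐂₁ x ⊓ 𝐂₁ u) * n = ♯(𝐂₁ x) := by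
  have c := (mem_cent1.1 hu).symm
  have e := cent1_mul c (px.coprime pu)
  have i := (h.of_m (ix ▸ ind_dvd_mul_left c (px.coprime pu))).resolve_left fun i => nu (by
    rw [← le_cent1_iff, ← cent1_eq_of_le (e.le.trans inf_le_left) (i.trans ix.symm).le, e]
    exact inf_le_right)
  refine Nat.eq_of_mul_eq_mul_right (h.m1.trans' one_pos) ?_
  rw [← e, mul_assoc, mul_comm n, ← i, card_mul_ind, ← ix, card_mul_ind]

theorem lemC (hp : p.Prime) (px : PiElt {p} x) (ix : ind x = m) (hz : z ∈ 𝐂₁ x)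
    (pz : PiElt {s} z) (sp : s ≠ p) (nz : z ∉ 𝐂 (𝐂₁ x)) : PiNat {p, s} n := by
  have pz' : PiElt {p}ᶜ z := pz.of_single sp
  rcases camina (H := 𝐂₁ x) hp (fun a ha b hb pa na pb nb => Nat.eq_of_mul_eq_mul_right
    (h.n1.trans' one_pos) ((h.card_inf px ix ha pa na).trans (h.card_inf px ix hb pb nb).symm))
    with ⟨K, hK, aK⟩ | ⟨q, hq, -, k⟩
  · obtain ⟨w, hw, nw⟩ := exists_nc_of_hall hK hz pz' nz
    obtain ⟨e, he⟩ := card_eq_pow hp hK (X := 𝐂₁ x ⊓ 𝐂₁ w)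
      (le_inf hK.le (le_cent1_iff.2 (aK hw))) inf_le_left
    rw [← h.card_inf px ix (hK.le hw) (hK.pi.elt hw) nw,
      Nat.mul_right_inj (card_ne_zero' _)] at he
    exact he ▸ (piNat_pow_self hp e).mono (by simp)
  · obtain rfl : s = q := by_contra fun e => nz (k z hz pz' (pz.of_single e))
    intro r hr d
    by_contra e
    simp only [Set.mem_insert_iff, Set.mem_singleton_iff, not_or] at e
    obtain ⟨R, hR⟩ := exists_syl r (𝐂₁ x)
    have l : R ≤ 𝐂₁ x ⊓ 𝐂₁ z := le_inf hR.le fun a ha => mem_cent1.2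
      (k a (hR.le ha) ((hR.pi.elt ha).of_single e.1) ((hR.pi.elt ha).of_single e.2) z hz).symm
    have i := hR.idx_of_le l
    have e2 := BG.card_mul_relIndex (inf_le_left : 𝐂₁ x ⊓ 𝐂₁ z ≤ _)
    rw [← h.card_inf px ix hz pz' nz, Nat.mul_right_inj (card_ne_zero' _)] at e2
    exact i r hr (e2 ▸ d) rfl

theorem not_cent (ix : ind x = m) (d : n ∣ ind z) : z ∉ 𝐂 (𝐂₁ x) := fun k =>
  h.ndvd (d.trans (ix ▸ ind_dvd_of_le (le_cent1_iff.2 k)))

theorem single (hm : PiNat {p, s} m) (d : s ∣ n) : PiNat {p} m := fun r hr e =>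
  (hm r hr e).resolve_right fun k => not_dvd_of_coprime h.cop hr e (k ▸ d)

theorem pp (hp : p.Prime) (hm : PiNat {p} m) : IsPrimePow m := by
  obtain ⟨k, rfl⟩ := hm.exists_pow (h.m1.trans' one_pos).ne'
  exact ⟨p, k, hp.prime, Nat.pos_of_ne_zero fun e => h.m1.ne' (by rw [e, pow_zero]), rfl⟩

theorem p_dvd (hm : PiNat {p} m) : p ∣ m := by
  obtain ⟨r, hr, d⟩ := Nat.exists_prime_and_dvd h.m1.ne'
  exact (show r = p from hm r hr d) ▸ d

theorem npc (hp : p.Prime) (px : PiElt {p} x) (ix : ind x = m) (hm : PiNat {p} m) :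
    NPC p (⊤ : Subgroup G) := by
  have := Fact.mk hp
  have pn := not_dvd_of_coprime h.cop hp (h.p_dvd hm)
  obtain ⟨k, hk⟩ := hm.exists_pow (h.m1.trans' one_pos).ne'
  refine (npc_iff hp).2 (CF.Transfer.hasNPC_top_iff.2 (Cfsg.Agent.S4127.result p k (fun y d => ?_)
    ⟨x, px.exists_pow (orderOf_pos x).ne', ix.trans hk⟩))
  have d1 := d.trans (h.dvd y)
  rw [hk, pow_succ] at d1
  exact pn ((Nat.mul_dvd_mul_iff_left (pow_pos hp.pos k)).1 d1)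

theorem nil (h1 : NPC p (⊤ : Subgroup G)) (h2 : NPC q (⊤ : Subgroup G)) (hm : PiNat {p} m)
    (hn : PiNat {q} n) : Nil (⊤ : Subgroup G) := by
  refine nil_of_forall_npc fun r hr _ => ?_
  by_cases e1 : r = p
  · exact e1 ▸ h1
  by_cases e2 : r = q
  · exact e2 ▸ h2
  obtain ⟨R, hR⟩ := exists_syl r (⊤ : Subgroup G)
  refine hR.burnside (inf_le_left.trans (le_center_iff.1 fun a ha => ?_))
  exact h.central (hR.pi.elt ha) (hm.not_dvd hr e1) (hn.not_dvd hr e2)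

theorem caseI (hp : p.Prime) (px : PiElt {p} x) (ix : ind x = m) (pm : p ∣ m) :
    Nil (⊤ : Subgroup G) ∧ IsPrimePow m ∧ IsPrimePow n := by
  have pn := not_dvd_of_coprime h.cop hp pm
  have B : ∀ y : G, ind y = n → x ∈ 𝐂₁ y := fun y iy =>
    comm_of px (iy ▸ (piNat_compl_single hp).2 pn) (ix ▸ iy ▸ h.cop.symm)
  by_cases k : ∃ q, q.Prime ∧ q ≠ p ∧ ∃ y : G, PiElt {q} y ∧ ind y = n
  · obtain ⟨q, hq, qp, y, py, iy⟩ := k
    have h1 : PiNat {q} n := h.symm.single (Set.pair_comm p q ▸ h.lemC hp px ix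
      (mem_cent1_comm.1 (B y iy)) py qp (h.not_cent ix iy.symm.dvd)) pm
    have h2 : PiNat {p} m := h.single (Set.pair_comm q p ▸ h.symm.lemC hq py iy
      (B y iy) px qp.symm (h.symm.not_cent iy ix.symm.dvd)) (h.symm.p_dvd h1)
    exact ⟨h.nil (h.npc hp px ix h2) (h.symm.npc hq py iy h1) h2 h1, h.pp hp h2, h.symm.pp hq h1⟩
  exfalso
  push Not at k
  obtain ⟨q, y, hq, py, iy⟩ := h.symm.exists_m
  obtain rfl : q = p := by_contra fun e => k q hq e y py iy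
  obtain ⟨t, v, ht, tn, hv, pv, nv⟩ : ∃ t v, t.Prime ∧ t ∣ n ∧ v ∈ 𝐂₁ y ∧ PiElt {t} v ∧
      v ∉ center G := by
    obtain ⟨t, ht, tn⟩ := Nat.exists_prime_and_dvd h.n1.ne'
    have tm := not_dvd_of_coprime h.cop.symm ht tn
    obtain ⟨T, hT⟩ := exists_syl t (𝐂₁ x)
    have hT' := syl_top_of_not_dvd hT (ix ▸ (piNat_compl_single ht).2 tm :)
    obtain ⟨u, hu, nu⟩ : ∃ u ∈ T, u ∉ center G := SetLike.not_le_iff_exists.1 fun l =>
      pi_ind_of_hall hT' (l.trans (center_le_cent1 y)) t ht (iy ▸ tn) rfl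
    have pu := hT.pi.elt hu
    have c := (mem_cent1.1 (hT.le hu)).symm
    have cop : (orderOf x).Coprime (orderOf u) :=
      px.coprime (pu.of_single (fun e => tm ((show t = q from e) ▸ pm)))
    rcases h.of_m (ix ▸ ind_dvd_mul_left c cop) with i | i
    · refine ⟨t, u, ht, tn, mem_cent1_comm.1 ?_, pu, nu⟩
      have e := cent1_mul c cop
      rw [cent1_eq_of_le (e.le.trans inf_le_left) (i.trans ix.symm).le] at e
      exact (e.le (mem_cent1_comm.1 (B y iy))).2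
    · obtain ⟨w, hw, pw, nw⟩ := nc_ind (a := x * u) (b := y) (i := m) (j := 1)
        (mem_cent1.2 (by rw [← mul_assoc, ← c, mul_assoc])) pu nu
        (by rw [i, iy, mul_one, mul_comm]) (piNat_one _)
      exact ⟨t, w, ht, tn, hw, pw, nw⟩
  have tq : t ≠ q := fun e => pn (e ▸ tn)
  have hm : PiNat {q} m := h.single (h.symm.lemC hq py iy hv pv tq
    (h.symm.not_cent iy (h.m_dvd nv (k t ht tq v pv)))) tn
  have N := h.npc hq px ix hm
  set K := 𝐎 {q}ᶜ (⊤ : Subgroup G) with hK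
  have Kx : K ≤ 𝐂₁ x := le_cent1_of_coprime (O_normal _ _).norm (PiNat.coprime' (O_pi _ _) (ix ▸ hm))
  obtain ⟨S, hS, yS⟩ := exists_syl_le (zpowers_le.2 (mem_cent1_comm.1 (B y iy))) (piGrp_zpowers.2 py)
  have hK' : Hall {q}ᶜ K (𝐂₁ x) := N.of_le Kx le_top
  have key : K ≤ K ⊓ 𝐂 S := le_of_forall_cj inf_le_left fun a ha => by
    have pa := (O_pi _ _).elt ha
    obtain ⟨T, hT⟩ := exists_syl q (𝐂₁ x ⊓ 𝐂₁ a)
    have hT' : Syl q T (𝐂₁ x) := hT.trans_idx inf_le_left (by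
      by_cases na : a ∈ 𝐂 (𝐂₁ x)
      · rw [inf_eq_left.2 (le_cent1_iff.2 na), relIndex_self]; exact piNat_one _
      · have e2 := BG.card_mul_relIndex (inf_le_left : 𝐂₁ x ⊓ 𝐂₁ a ≤ _)
        rw [← h.card_inf px ix (Kx ha) pa na, Nat.mul_right_inj (card_ne_zero' _)] at e2
        exact e2 ▸ (piNat_compl_single hq).2 pn)
    obtain ⟨g, hg, rfl⟩ := hS.syl_conj hT'
    obtain ⟨c, hc, d, hd, rfl⟩ := hK'.exists_mul hS.compl_compl hg
    refine ⟨c, hc, mem_cj.2 (mem_inf.2 ⟨mul_mem (mul_mem (inv_mem hc) ha) hc,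
      mem_cent.2 fun b hb => ?_⟩)⟩
    have h1 : c * b * c⁻¹ ∈ BG.cj (c * d) S := mem_cj.2 (by
      simpa [mul_assoc] using mul_mem (mul_mem (inv_mem hd) hb) hd)
    have h2 := mem_cent1.1 (hT.le h1).2
    calc b * (c⁻¹ * a * c) = c⁻¹ * (c * b * c⁻¹ * a) * c := by group
      _ = c⁻¹ * a * c * b := by rw [h2]; group
  have Ky : K ≤ 𝐂₁ y := key.trans (inf_le_right.trans (cent_le_cent1 (yS (mem_zpowers y))))
  exact tq ((pi_ind_of_hall N Ky).of_compl_compl t ht (iy ▸ tn))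

theorem half (hp : p.Prime) (px : PiElt {p} x) (ix : ind x = m) (hq : q.Prime) (py : PiElt {q} y)
    (iy : ind y = n) (k1 : ∀ p, p.Prime → ∀ x : G, PiElt {p} x → ind x = m → ¬ p ∣ m)
    (k2 : ∀ p, p.Prime → ∀ x : G, PiElt {p} x → ind x = n → ¬ p ∣ n) :
    PiNat {p} n ∧ ∃ s, s.Prime ∧ s ∣ m ∧ ∃ z ∈ 𝐂₁ x, PiElt {s} z ∧ z ∉ center G := by
  have ny := h.symm.nc iy.symm.dvd
  have qm : q ∣ m := by_contra fun e => ny (h.central py e (k2 q hq y py iy))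
  have key : ∃ s, s.Prime ∧ s ∣ m ∧ ∃ z ∈ 𝐂₁ x, PiElt {s} z ∧ z ∉ center G := by
    obtain ⟨w, iw⟩ := h.emn
    obtain ⟨s, hs, v, hv, pv, nv⟩ := exists_prime_part (h.nc (iw ▸ dvd_mul_right m n))
    have vw : v ∈ 𝐂₁ w := mem_cent1_comm.1 (Fgs1.cent1_le_of_mem_zpowers hv (self_mem_cent1 w))
    by_cases sm : s ∣ m
    · exact ⟨s, hs, sm, nc_ind (i := n) (j := 1) vw pv nv (by rw [ix, iw, mul_one]) (piNat_one _)⟩
    have sn : s ∣ n := by_contra fun e => nv (h.central pv sm e)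
    obtain ⟨u, hu, pu, nu⟩ := nc_ind (b := y) (i := m) (j := 1) vw pv nv
      (by rw [iy, iw, mul_one, mul_comm]) (piNat_one _)
    obtain ⟨i, hi⟩ := h.m_dvd nu fun e => k2 s hs u pu e sn
    exact ⟨q, hq, qm, nc_ind (i := i) (j := 1) (mem_cent1_comm.1 hu) py ny
      (by rw [ix, hi, mul_one]) (piNat_one _)⟩
  refine ⟨?_, key⟩
  obtain ⟨s, hs, sm, z, hz, pz, nz⟩ := key
  exact h.symm.single (h.lemC hp px ix hz pz (fun e => k1 p hp x px ix (e ▸ sm))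
    (h.not_cent ix (h.symm.m_dvd nz fun e => k1 s hs z pz e sm))) sm

end Four

/-- the second case -/
structure T2 (G : Type*) [Group G] (m n p q : ℕ) : Prop extends Four G m n where
  hp : p.Prime
  hq : q.Prime
  pn : PiNat {p} n
  qm : PiNat {q} m
  k1 : ∀ x : G, PiElt {p} x → ind x ≠ n
  k2 : ∀ x : G, PiElt {q} x → ind x ≠ m
  e1 : ∃ x : G, PiElt {p} x ∧ ind x = m ∧ ∃ z ∈ 𝐂₁ x, PiElt {q} z ∧ z ∉ center G
  e2 : ∃ x : G, PiElt {q} x ∧ ind x = n ∧ ∃ z ∈ 𝐂₁ x, PiElt {p} z ∧ z ∉ center G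

namespace T2
variable (h : T2 G m n p q)
include h

theorem symm : T2 G n m q p :=
  ⟨h.toFour.symm, h.hq, h.hp, h.qm, h.pn, h.k2, h.k1, h.e2, h.e1⟩

theorem pq : p ≠ q := fun e =>
  not_dvd_of_coprime h.cop h.hq (h.p_dvd h.qm) (e ▸ h.toFour.symm.p_dvd h.pn)

theorem p'm : PiNat {p}ᶜ m := h.qm.of_single h.pq.symm

theorem cop' (px : PiElt {p} x) (py : PiElt {q} y) : (orderOf x).Coprime (orderOf y) :=
  px.coprime (py.of_single h.pq.symm)

theorem mem_U (px : PiElt {p} x) (h1 : 𝐎 {p} (⊤ : Subgroup G) ≤ 𝐂₁ x)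
    (h2 : 𝐎 {q} (⊤ : Subgroup G) ≤ 𝐂₁ x) : x ∈ 𝐎 {p} (⊤ : Subgroup G) := by
  have c : ∀ r, r.Prime → r ≠ p → r ≠ q → ∀ u : G, PiElt {r} u → u ∈ center G :=
    fun r hr e1 e2 u pu => h.central pu (h.qm.not_dvd hr e2) (h.pn.not_dvd hr e1)
  have s : Sol (⊤ : Subgroup G) := sol_of_two (p := p) (q := q) fun u _ p1 p2 =>
    center_le_cent _ (mem_center_of_constt fun r hr => by
      have k := constt_pi {r} u
      by_cases e1 : r = p
      · rw [constt_of_pi' (e1 ▸ p1)]; exact one_mem _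
      by_cases e2 : r = q
      · rw [constt_of_pi' (e2 ▸ p2)]; exact one_mem _
      exact c r hr e1 e2 _ k)
  refine zpowers_le.1 (le_O_of_le_F (zpowers_le.2 (s.cent_F_le ⟨mem_top x, ?_⟩))
    (piGrp_zpowers.2 px))
  refine le_cent1_iff.1 (F_le_of_forall fun r hr _ => ?_)
  by_cases e1 : r = p
  · exact e1 ▸ h1
  by_cases e2 : r = q
  · exact e2 ▸ h2
  exact fun u hu => center_le_cent1 x (c r hr e1 e2 u ((O_pi _ _).elt hu))

theorem ex (d : m ∣ ind g) : ∃ z ∈ 𝐂₁ g, PiElt {q} z ∧ z ∉ center G := by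
  obtain ⟨x, -, ix, z, hz, pz, nz⟩ := h.e1
  rcases h.of_m d with e | e
  · exact nc_ind (i := 1) (j := 1) hz pz nz (by rw [e, ix]) (piNat_one _)
  · exact nc_ind (i := 1) (j := n) hz pz nz (by rw [e, ix, mul_one]) h.symm.p'm

theorem axb (px : PiElt {p} x) (pz : PiElt {q} z) (hz : z ∈ 𝐂₁ x)
    (l : 𝐎 {q} (⊤ : Subgroup G) ⊓ 𝐂₁ z ≤ 𝐂₁ x) : 𝐎 {q} (⊤ : Subgroup G) ≤ 𝐂₁ x := by
  rw [← cent_zpowers, ← cent_zpowers] at l
  rw [← cent_zpowers, cent_comm]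
  exact cent_of_pxq (piGrp_zpowers.2 pz) (O_pi _ _) (piGrp_zpowers.2 (px.of_single h.pq))
    (by rw [cent_zpowers]; exact zpowers_le.2 hz) (le_top.trans (O_normal _ _).norm)
    (le_top.trans (O_normal _ _).norm) l

theorem lemD (px : PiElt {p} x) (ix : ind x = m) (nx : x ∉ 𝐎 {p} (⊤ : Subgroup G)) :
    (∀ z ∈ 𝐂₁ x, PiElt {q} z → z ∉ center G → ind z = n) ∧
    (∀ v ∈ 𝐎 {q} (⊤ : Subgroup G), v ∉ center G → ind v = n) ∧
    ¬ 𝐎 {q} (⊤ : Subgroup G) ≤ 𝐂₁ x := by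
  have h3 : ¬ 𝐎 {q} (⊤ : Subgroup G) ≤ 𝐂₁ x := fun l => nx (h.mem_U px (cent_O (ix ▸ h.p'm)) l)
  have h1 : ∀ z ∈ 𝐂₁ x, PiElt {q} z → z ∉ center G → ind z = n := fun z hz pz nz =>
    (h.symm.of_m (h.symm.m_dvd nz (h.k2 z pz))).resolve_right fun e => h3 (h.axb px pz hz
      (inf_le_right.trans (h.symm.le_of_mn e (mem_cent1_comm.1 hz) (h.cop' px pz).symm)))
  refine ⟨h1, fun v hv nv => ?_, h3⟩
  have pv := (O_pi _ _).elt hv
  by_cases vx : v ∈ 𝐂₁ x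
  · exact h1 v vx pv nv
  refine (h.symm.of_m (h.symm.m_dvd nv (h.k2 v pv))).resolve_right fun e => vx ?_
  obtain ⟨Q, hQ⟩ := exists_syl q (𝐂₁ x)
  have l : Q ≤ 𝐂₁ v := fun z hz => mem_cent1_comm.1 (cent_O (p := q) (by
    by_cases nz : z ∈ center G
    · rw [ind_eq_one.2 nz]; exact piNat_one _
    · rw [h1 z (hQ.le hz) (hQ.pi.elt hz) nz]; exact h.symm.p'm) hv)
  have hQ' : Syl q Q (𝐂₁ v) := ⟨l, hQ.pi, by
    have e1 := card_mul_ind x
    rw [← card_mul_ind v, ← BG.card_mul_relIndex hQ.le, ← BG.card_mul_relIndex l, ix, e, mul_assoc,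
      mul_assoc, Nat.mul_right_inj (card_ne_zero' _), ← mul_assoc,
      Nat.mul_left_inj (h.m1.trans' one_pos).ne'] at e1
    exact hQ.idx.dvd (e1 ▸ dvd_mul_right _ _)⟩
  exact hQ.le (hQ'.mem_of_norm (self_mem_cent1 v) (cent_le_norm Q (le_cent1_iff.1 l)) pv)

theorem abel (k : ∀ v ∈ 𝐎 {q} (⊤ : Subgroup G), v ∉ center G → ind v = n) :
    Abel (𝐎 {q} (⊤ : Subgroup G)) := fun v hv => le_cent1_iff.1 (cent_O (by
  by_cases nz : v ∈ center G
  · rw [ind_eq_one.2 nz]; exact piNat_one _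
  · rw [k v hv nz]; exact h.symm.p'm))

theorem comm_mem (hv : v ∈ 𝐎 {q} (⊤ : Subgroup G)) (x : G) : ⁅x, v⁆ ∈ 𝐎 {q} (⊤ : Subgroup G) :=
  mul_mem (conj_mem_of_norm ((O_normal _ _).norm (mem_top x)) hv) (inv_mem hv)

theorem comm_one (px : PiElt {p} x) (hv : v ∈ 𝐎 {q} (⊤ : Subgroup G)) (c : x ∈ 𝐂₁ ⁅x, v⁆) :
    v ∈ 𝐂₁ x := by
  refine mem_cent1.2 (comm_eq_one_of_coprime ?_ ?_)
  · rw [← commutatorElement_inv, cent1_inv]; exact c
  · rw [← commutatorElement_inv, orderOf_inv]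
    exact h.cop' px ((O_pi _ _).elt (h.comm_mem hv x))

theorem lt (px : PiElt {p} x) (ix : ind x = m) (nx : x ∉ 𝐎 {p} (⊤ : Subgroup G)) : n < m := by
  obtain ⟨-, h2, h3⟩ := h.lemD px ix nx
  obtain ⟨v, hv, nv⟩ := SetLike.not_le_iff_exists.1 h3
  have := ind_comm_lt (h.abel h2) (O_normal _ _).norm (h.nc ix.symm.dvd) hv
  rwa [ix, h2 _ (h.comm_mem hv x) fun k => nv (h.comm_one px hv (center_le_cent1 _ |>
    fun l : center G ≤ 𝐂₁ x => mem_cent1_comm.1 (l k)))] at this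

theorem caseA (px : PiElt {p} x) (ix : ind x = m)
    (k : ∀ y : G, PiElt {q} y → ind y = n → y ∈ 𝐎 {q} (⊤ : Subgroup G)) :
    x ∈ 𝐎 {p} (⊤ : Subgroup G) := by
  by_contra nx
  obtain ⟨h1, h2, h3⟩ := h.lemD px ix nx
  have a := h.abel h2
  obtain ⟨v, hv, nv⟩ := SetLike.not_le_iff_exists.1 h3
  obtain ⟨z, hz, pz, nz⟩ := h.ex ix.symm.dvd
  have zV := k z pz (h1 z hz pz nz)
  have wV := h.comm_mem hv x
  have nw : x ∉ 𝐂₁ ⁅x, v⁆ := fun c => nv (h.comm_one px hv c)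
  have nu : z * ⁅x, v⁆ ∉ center G := fun c => nw (mem_cent1_comm.1
    ((Subgroup.mul_mem_cancel_left _ hz).1 (center_le_cent1 x c)))
  have i : ∀ u : G, ind u = n → (𝐂₁ x ⊓ 𝐂₁ u).index = m * n := fun u iu => by
    rw [CF.Solv.index_inf_of_coprime (show (ind x).Coprime (ind u) from ix ▸ iu ▸ h.cop)]
    exact congrArg₂ _ ix iu
  have l : ∀ t ∈ 𝐂₁ x ⊓ 𝐂₁ (z * ⁅x, v⁆), t ∈ 𝐂₁ z ∧ t ∈ 𝐂₁ ⁅x, v⁆ := by
    intro t ht
    have e1 := mem_cent1.1 ht.1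
    have e2 := mem_cent1.1 ht.2
    have nt := (O_normal {q} (⊤ : Subgroup G)).norm (mem_top t)
    have v' := conj_mem_of_norm nt hv
    have e3 : t * ⁅x, v⁆ * t⁻¹ = ⁅x, t * v * t⁻¹⁆ := by
      rw [conjugate_commutatorElement, e1, mul_inv_cancel_right]
    have e4 : ⁅x, v * (t * v * t⁻¹)⁻¹⁆ = z⁻¹ * (t * z * t⁻¹) := by
      have c1 := mem_cent.1 (a (h.comm_mem (inv_mem v') x)) v hv
      have c2 := mem_cent.1 (a (h.comm_mem v' x)) _ v'
      have e5 : ⁅x, (t * v * t⁻¹)⁻¹⁆ = ⁅x, t * v * t⁻¹⁆⁻¹ := by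
        rw [eq_inv_iff_mul_eq_one]
        generalize t * v * t⁻¹ = b at c2
        calc ⁅x, b⁻¹⁆ * ⁅x, b⁆ = x * b⁻¹ * x⁻¹ * (b * ⁅x, b⁆) := by rw [commutatorElement_def]; group
          _ = 1 := by rw [c2, commutatorElement_def]; group
      rw [comm_mul_right, c1, mul_inv_cancel_right, e5, ← e3, mul_inv_eq_iff_eq_mul,
        show z⁻¹ * (t * z * t⁻¹) * (t * ⁅x, v⁆ * t⁻¹) = z⁻¹ * (t * (z * ⁅x, v⁆)) * t⁻¹ by group, e2]
      group
    have zt : t * z * t⁻¹ ∈ 𝐂₁ x := mul_mem (mul_mem ht.1 hz) (inv_mem ht.1)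
    have e6 := mem_cent1_iff_comm.1 (h.comm_one px (mul_mem hv (inv_mem v'))
        (e4 ▸ mem_cent1_comm.1 (mul_mem (inv_mem hz) zt)))
    rw [e4, inv_mul_eq_one, eq_mul_inv_iff_mul_eq] at e6
    refine ⟨mem_cent1.2 e6.symm, mem_cent1.2 (mul_left_cancel (a := z) ?_)⟩
    rw [← mul_assoc, e6, mul_assoc, e2, mul_assoc]
  have e1 := (𝐂₁ x ⊓ 𝐂₁ z).card_mul_index
  rw [← (𝐂₁ x ⊓ 𝐂₁ (z * ⁅x, v⁆)).card_mul_index, i _ (h1 z hz pz nz),
    i _ (h2 _ (mul_mem zV wV) nu), Nat.mul_left_inj (mul_pos (h.m1.trans' one_pos)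
      (h.n1.trans' one_pos)).ne'] at e1
  have l' : 𝐂₁ x ⊓ 𝐂₁ (z * ⁅x, v⁆) ≤ 𝐂₁ x ⊓ 𝐂₁ z := fun t ht => mem_inf.2 ⟨ht.1, (l t ht).1⟩
  have e := eq_of_le_of_card_ge l' e1.le
  exact nw (l x (e.ge (mem_inf.2 ⟨self_mem_cent1 x, mem_cent1_comm.1 hz⟩))).2

theorem caseB (k1 : ∀ x : G, PiElt {p} x → ind x = m → x ∈ 𝐎 {p} (⊤ : Subgroup G))
    (k2 : ∀ y : G, PiElt {q} y → ind y = n → y ∈ 𝐎 {q} (⊤ : Subgroup G)) : False := by
  obtain ⟨x, px, ix, -⟩ := h.e1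
  obtain ⟨y, py, iy, -⟩ := h.e2
  have key : ∀ g : G, PiElt {p} g → g ∉ 𝐎 {p} (⊤ : Subgroup G) → g ∈ 𝐂₁ y := by
    intro g pg ng
    have nz : g ∉ center G := fun c =>
      ng (h.mem_U pg (le_cent1_iff.2 (center_le_cent _ c)) (le_cent1_iff.2 (center_le_cent _ c)))
    have ig := (h.of_m (h.m_dvd nz (h.k1 g pg))).resolve_left fun e => ng (k1 g pg e)
    have q1 : ∀ z ∈ 𝐂₁ g, PiElt {q} z → z ∈ 𝐎 {q} (⊤ : Subgroup G) := by
      intro z hz pz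
      by_cases cz : z ∈ center G
      · exact h.symm.mem_U pz (le_cent1_iff.2 (center_le_cent _ cz))
          (le_cent1_iff.2 (center_le_cent _ cz))
      refine k2 z pz ((h.symm.of_m (h.symm.m_dvd cz (h.k2 z pz))).resolve_right fun e => ng ?_)
      have l1 := h.le_of_mn ig hz (h.cop' pg pz)
      have l2 := h.symm.le_of_mn e (mem_cent1_comm.1 hz) (h.cop' pg pz).symm
      exact h.mem_U pg ((h.symm.axb pz pg (mem_cent1_comm.1 hz) (inf_le_right.trans l1)).trans l2)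
        (h.axb pg pz hz (inf_le_right.trans l2))
    obtain ⟨T, hT⟩ := exists_syl q (𝐂₁ g)
    have l : T ≤ 𝐎 {q} (⊤ : Subgroup G) := fun z hz => q1 z (hT.le hz) (hT.pi.elt hz)
    have Vx : 𝐎 {q} (⊤ : Subgroup G) ≤ 𝐂₁ x := le_cent1_iff.2 (cent_of_inf_eq_bot
      (le_top.trans (O_normal _ _).norm) (le_top.trans (O_normal _ _).norm)
      ((O_pi {p} ⊤).inf_eq_bot ((O_pi {q} ⊤).of_single_ne h.pq.symm)) (k1 x px ix))
    have d : ♯(𝐎 {q} (⊤ : Subgroup G)) ∣ ♯T := by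
      refine hT.dvd_card (((O_pi _ _).coprime h.symm.p'm).dvd_of_dvd_mul_right ?_) (O_pi _ _)
      have e1 := card_mul_ind x
      rw [← card_mul_ind g, ix, ig, mul_comm m, ← mul_assoc,
        Nat.mul_left_inj (h.m1.trans' one_pos).ne'] at e1
      exact e1 ▸ card_dvd Vx
    have e := eq_of_le_of_card_ge l (Nat.le_of_dvd (Nat.pos_of_ne_zero (card_ne_zero' T)) d)
    exact mem_cent1_comm.1 (hT.le (e ▸ k2 y py iy))
  obtain ⟨P, hP⟩ := exists_syl p (⊤ : Subgroup G)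
  have Uy : 𝐎 {p} (⊤ : Subgroup G) ≤ 𝐂₁ y := le_cent1_iff.2 (cent_of_inf_eq_bot
    (le_top.trans (O_normal _ _).norm) (le_top.trans (O_normal _ _).norm)
    ((O_pi {q} ⊤).inf_eq_bot ((O_pi {p} ⊤).of_single_ne h.pq)) (k2 y py iy))
  have l : P ≤ 𝐂₁ y := fun g hg => by
    by_cases e : g ∈ 𝐎 {p} (⊤ : Subgroup G)
    · exact Uy e
    · exact key g (hP.pi.elt hg) e
  exact pi_ind_of_hall hP l p h.hp (iy ▸ h.toFour.symm.p_dvd h.pn) rfl

theorem false : False := by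
  rcases lt_or_gt_of_ne (fun e : m = n => h.ndvd e.symm.dvd) with l | l
  · have k1 : ∀ x : G, PiElt {p} x → ind x = m → x ∈ 𝐎 {p} (⊤ : Subgroup G) := fun x px ix =>
      by_contra fun nx => l.not_gt (h.lt px ix nx)
    exact h.caseB k1 fun y py iy => h.symm.caseA py iy k1
  · have k2 : ∀ x : G, PiElt {q} x → ind x = n → x ∈ 𝐎 {q} (⊤ : Subgroup G) := fun x px ix =>
      by_contra fun nx => l.not_gt (h.symm.lt px ix nx)
    exact h.caseB (fun y py iy => h.caseA py iy k2) k2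

end T2

theorem Four.main (h : Four G m n) : Nil (⊤ : Subgroup G) ∧ IsPrimePow m ∧ IsPrimePow n := by
  by_cases k1 : ∃ p, p.Prime ∧ ∃ x : G, PiElt {p} x ∧ ind x = m ∧ p ∣ m
  · obtain ⟨p, hp, x, px, ix, d⟩ := k1
    exact h.caseI hp px ix d
  by_cases k2 : ∃ p, p.Prime ∧ ∃ x : G, PiElt {p} x ∧ ind x = n ∧ p ∣ n
  · obtain ⟨p, hp, x, px, ix, d⟩ := k2
    exact (h.symm.caseI hp px ix d).imp_right And.symm
  push Not at k1 k2
  obtain ⟨p, x, hp, px, ix⟩ := h.exists_m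
  obtain ⟨q, y, hq, py, iy⟩ := h.symm.exists_m
  obtain ⟨pn, s, hs, sm, e1⟩ := h.half hp px ix hq py iy k1 k2
  obtain ⟨qm, t, ht, tn, e2⟩ := h.symm.half hq py iy hp px ix k2 k1
  obtain rfl : s = q := qm s hs sm
  obtain rfl : t = p := pn t ht tn
  exact (T2.false ⟨h, hp, hq, pn, qm, fun u pu e => k2 t hp u pu e tn,
    fun u pu e => k1 s hq u pu e sm, ⟨x, px, ix, e1⟩, ⟨y, py, iy, e2⟩⟩).elim

end CF.Fo
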