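import Cfsg.Agent.Cusp.C
import Cfsg.Agent.Transfer.SylowIn
import Cfsg.Agent.Solv.Nilpotent

/-! Opposite Sylow 2-subgroups of `GL_n(2)`. -/

set_option autoImplicit false

open scoped MatrixGroups
open Cfsg Matrix Subgroup CF.Cusp CF.Transfer

namespace CF.Opp

variable {n : ℕ}

theorem isPGroup_Uni (hn : 0 < n) : IsPGroup 2 (Uni n (ZMod 2)) := by
  have : Nonempty (Fin n) := ⟨⟨0, hn⟩⟩
  have : Fact (Nat.Prime 2) := ⟨Nat.prime_two⟩
  intro g
  refine ⟨n, Subtype.ext (Units.ext ?_)⟩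
  obtain ⟨h1, h2⟩ := inU_zero.1 g.2
  have h3 := aeval_self_charpoly g.1.1
  rw [charpoly_of_upperTriangular _ h1] at h3
  simp only [h2, Finset.prod_const, Finset.card_univ, Fintype.card_fin, map_pow, map_sub,
    Polynomial.aeval_X, Polynomial.aeval_C, map_one] at h3
  have h4 : (g.1.1 - 1) ^ 2 ^ n = 0 :=
    pow_eq_zero_of_le (Nat.lt_two_pow_self).le h3
  rw [sub_pow_char_pow_of_commute 2 n (Commute.one_right _), one_pow, sub_eq_zero] at h4
  exact h4

theorem mono_eq (w : Equiv.Perm (Fin n)) (c : Fin n → (ZMod 2)ˣ) : mono w c = mono w 1 := by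
  rw [Subsingleton.elim c 1]

theorem mono_one : mono (1 : Equiv.Perm (Fin n)) (1 : Fin n → (ZMod 2)ˣ) = 1 := by
  ext i j
  rw [mono_apply, Units.val_one, one_apply]
  rfl

theorem norm_Uni {g : GL (Fin n) (ZMod 2)}
    (hg : g ∈ normalizer (Uni n (ZMod 2) : Set (GL (Fin n) (ZMod 2)))) : g ∈ Uni n (ZMod 2) := by
  obtain ⟨a, b, w, c, rfl⟩ := bruhat g
  have hm : mono w c ∈ normalizer (Uni n (ZMod 2) : Set (GL (Fin n) (ZMod 2))) := by
    have h1 := (normalizer _).mul_mem ((normalizer _).mul_mem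
      ((normalizer _).inv_mem (le_normalizer a.2)) hg) ((normalizer _).inv_mem (le_normalizer b.2))
    rwa [show (a : GL (Fin n) (ZMod 2))⁻¹ * (a * mono w c * b) * (b : GL (Fin n) (ZMod 2))⁻¹ =
      mono w c by group] at h1
  have hw : StrictMono w := by
    intro i j hij
    have h1 := conj_mem_of_mem_normalizer hm (rootU hij (1 : ZMod 2)).2
    have h2 := conj_mono (a := mono w c * (rootU hij (1 : ZMod 2)).1 * (mono w c)⁻¹)
      (b := (rootU hij (1 : ZMod 2)).1) (w := w) (w' := w) (c := c) (c' := c) (by group) i j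
    rw [rootU_val, Matrix.add_apply, one_apply_ne hij.ne, single_apply_same, zero_add,
      mul_one] at h2
    by_contra hle
    have hlt : w j < w i := lt_of_le_of_ne (not_lt.1 hle) (fun e => hij.ne' (w.injective e))
    rw [(inU_zero.1 h1).1 hlt, zero_mul] at h2
    exact (c i).ne_zero h2.symm
  have hw1 : w = 1 := Equiv.ext fun i => hw.apply_eq
  rw [mono_eq, hw1, mono_one, mul_one]
  exact (Uni n (ZMod 2)).mul_mem a.2 b.2

theorem opp_Uni {g : GL (Fin n) (ZMod 2)} (hg : Uni n (ZMod 2) ⊓ cj g (Uni n (ZMod 2)) = ⊥) :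
    ∃ a ∈ Uni n (ZMod 2), ∃ b ∈ Uni n (ZMod 2), g = a * mono Fin.revPerm 1 * b := by
  obtain ⟨⟨a, ha⟩, ⟨b, hb⟩, w, c, e0⟩ := bruhat g
  dsimp only at e0
  rw [mono_eq] at e0
  subst e0
  refine ⟨a, ha, b, hb, ?_⟩
  have hw : StrictAnti w := by
    intro i j hij
    by_contra hle
    have hlt : w i < w j := lt_of_le_of_ne (not_lt.1 hle) (fun e => hij.ne (w.injective e))
    have e : (rootU hlt (1 : ZMod 2)).1 * mono w 1 = mono w 1 * (rootU hij (1 : ZMod 2)).1 := by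
      ext k l
      obtain ⟨k, rfl⟩ := w.surjective k
      rw [Units.val_mul, Units.val_mul, mul_mono, mono_mul, rootU_val, rootU_val]
      simp [one_apply, single_apply]
    have h1 : a * (rootU hlt (1 : ZMod 2)).1 * a⁻¹ ∈
        Uni n (ZMod 2) ⊓ cj (a * mono w 1 * b) (Uni n (ZMod 2)) := by
      refine mem_inf.2 ⟨(Uni n (ZMod 2)).mul_mem ((Uni n (ZMod 2)).mul_mem ha (rootU hlt _).2)
        ((Uni n (ZMod 2)).inv_mem ha), ?_⟩
      rw [mem_cj]
      have e2 : (rootU hlt (1 : ZMod 2)).1 = mono w 1 * (rootU hij (1 : ZMod 2)).1 * (mono w 1)⁻¹ := by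
        rw [← e]; group
      rw [e2, show (a * mono w 1 * b)⁻¹ * (a * (mono w 1 *
        (rootU hij (1 : ZMod 2)).1 * (mono w 1)⁻¹) * a⁻¹) *
        (a * mono w 1 * b) = b⁻¹ * (rootU hij (1 : ZMod 2)).1 * b by group]
      exact (Uni n (ZMod 2)).mul_mem ((Uni n (ZMod 2)).mul_mem ((Uni n (ZMod 2)).inv_mem hb)
        (rootU hij _).2) hb
    rw [hg, mem_bot, mul_inv_eq_one, mul_eq_left] at h1
    have h2 := congrArg (fun x : GL (Fin n) (ZMod 2) => x.1 (w i) (w j)) h1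
    simp only [rootU_val, Matrix.add_apply, single_apply_same, Units.val_one] at h2
    exact one_ne_zero (add_eq_left.1 h2)
  have h1 : StrictMono (fun i : Fin n => w i.rev) := fun i j h => hw (Fin.rev_lt_rev.2 h)
  have hw1 : w = Fin.revPerm := Equiv.ext fun i => by
    have := h1.apply_eq (x := i.rev)
    simpa using this
  rw [hw1]

variable {G : Type*} [Group G]

/-- The facts about a Sylow 2-subgroup `U` of `N` used below. -/
structure Facts (N U : Subgroup G) : Prop where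
  le : U ≤ N
  two : IsPGroup 2 U
  norm : ∀ g ∈ N, g ∈ normalizer (U : Set G) → g ∈ U
  opp : ∃ w, ∀ g ∈ N, U ⊓ cj g U = ⊥ → ∃ a ∈ U, ∃ b ∈ U, g = a * w * b

theorem facts (hn : 0 < n) (ι : GL (Fin n) (ZMod 2) →* G) (hι : Function.Injective ι) :
    Facts ι.range ((Uni n (ZMod 2)).map ι) where
  le := map_le_range ι _
  two := (isPGroup_Uni hn).map ι
  norm := by
    rintro _ ⟨g, rfl⟩ hg
    refine mem_map_of_mem ι (norm_Uni ?_)
    rw [mem_normalizer_iff_cj] at hg ⊢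
    rw [← map_cj] at hg
    exact map_injective hι hg
  opp := ⟨ι (mono Fin.revPerm 1), by
    rintro _ ⟨g, rfl⟩ hg
    rw [← map_cj, ← Subgroup.map_inf _ _ _ hι, Subgroup.map_eq_bot_iff_of_injective _ hι] at hg
    obtain ⟨a, ha, b, hb, rfl⟩ := opp_Uni hg
    exact ⟨ι a, mem_map_of_mem ι ha, ι b, mem_map_of_mem ι hb, by rw [map_mul, map_mul]⟩⟩

variable [Finite G]

theorem Facts.sylow {N U : Subgroup G} (h : Facts N U) : IsSylowIn 2 U N := by
  have : Fact (Nat.Prime 2) := ⟨Nat.prime_two⟩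
  refine isSylowIn_of_maximal h.two h.le fun Q hQ hUQ hQN => ?_
  by_contra hne
  have h1 := lt_inf_normalizer_of_lt hQ (lt_of_le_not_ge hUQ hne)
  exact h1.not_ge fun x hx => h.norm x (hQN (mem_inf.1 hx).1) (mem_inf.1 hx).2

theorem Facts.main {N : Subgroup G} [hN : N.Normal] (hidx : N.index = 2) (H : Sylow 2 G)
    (h : Facts N ((H : Subgroup G) ⊓ N)) (x : G) : (H : Subgroup G) ⊓ cj x H ≠ ⊥ := by
  have : Fact (Nat.Prime 2) := ⟨Nat.prime_two⟩
  intro hb
  set U := (H : Subgroup G) ⊓ N with hU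
  have hS := h.sylow
  have hnn : ∀ g : G, g ∈ normalizer (N : Set G) := fun g => le_normalizer_of_normal (mem_top g)
  obtain ⟨w, hw⟩ := h.opp
  obtain ⟨y, hyH, hyN⟩ : ∃ y ∈ (H : Subgroup G), y ∉ N := by
    by_contra hno
    push Not at hno
    exact CF.Solv.not_dvd_index_of_sylow_le H hno (by rw [hidx])
  have hyU : cj y U = U := by rw [hU, cj_inf, cj_eq_of_mem hyH, cj_eq_of_normal]
  obtain ⟨g, hg, e⟩ := hS.exists_cj_eq (hS.cj_of_mem_normalizer (hnn x))
  obtain ⟨g', hg', e'⟩ := hS.exists_cj_eq (hS.cj_of_mem_normalizer (hnn (y * x)))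
  have h1 : U ⊓ cj x U = ⊥ :=
    eq_bot_iff.2 ((inf_le_inf inf_le_left (cj_mono x inf_le_left)).trans hb.le)
  obtain ⟨a, ha, b, hb', rfl⟩ := hw g hg (by rw [e, h1])
  obtain ⟨a', ha', b', hb'', rfl⟩ := hw g' hg' (by
    rw [e', cj_mul]
    nth_rewrite 1 [← hyU]
    rw [← cj_inf, h1, cj_bot])
  rw [cj_mul, cj_eq_of_mem hb'] at e
  rw [cj_mul, cj_eq_of_mem hb''] at e'
  have hz : x⁻¹ * (a * a'⁻¹ * y) * x * y⁻¹ ∈ normalizer (U : Set G) := by
    rw [mem_normalizer_iff_cj, cj_mul, cj_eq_iff.1 hyU |>.symm,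
      show x⁻¹ * (a * a'⁻¹ * y) * x = x⁻¹ * (a * a'⁻¹) * (y * x) by group, cj_mul, ← e', cj_cj,
      show x⁻¹ * (a * a'⁻¹) * (a' * w) = x⁻¹ * (a * w) by group, cj_mul, e, cj_cj,
      inv_mul_cancel, cj_one]
  have haa : a * a'⁻¹ ∈ U := U.mul_mem ha (U.inv_mem ha')
  have hzn : a * a'⁻¹ * y ∉ N := fun hh => hyN ((N.mul_mem_cancel_left (mem_inf.1 haa).2).1 hh)
  have hzN : x⁻¹ * (a * a'⁻¹ * y) * x * y⁻¹ ∈ N := by
    rw [mul_mem_iff_of_index_two hidx, N.inv_mem_iff]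
    refine iff_of_false (fun hh => hzn ?_) hyN
    have := hN.conj_mem _ hh x
    rwa [show x * (x⁻¹ * (a * a'⁻¹ * y) * x) * x⁻¹ = a * a'⁻¹ * y by group] at this
  have h2 := (mem_inf.1 (h.norm _ hzN hz)).1
  have h3 : a * a'⁻¹ * y ∈ (H : Subgroup G) ⊓ cj x H := by
    refine mem_inf.2 ⟨(H : Subgroup G).mul_mem (mem_inf.1 haa).1 hyH, mem_cj.2 ?_⟩
    have := (H : Subgroup G).mul_mem h2 hyH
    rwa [inv_mul_cancel_right] at this
  rw [hb, mem_bot] at h3
  exact hzn (h3 ▸ N.one_mem)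

theorem main (hn : 0 < n) {N : Subgroup G} [hN : N.Normal] (hidx : N.index = 2)
    (ι : GL (Fin n) (ZMod 2) →* G) (hι : Function.Injective ι) (hr : ι.range = N) (H : Sylow 2 G)
    (x : G) : (H : Subgroup G) ⊓ cj x H ≠ ⊥ := by
  have : Fact (Nat.Prime 2) := ⟨Nat.prime_two⟩
  have h1 := facts hn ι hι
  rw [hr] at h1
  obtain ⟨g, hg, e⟩ := h1.sylow.exists_cj_eq (isSylowIn_inf_normal H N)
  have h2 := facts hn ((MulAut.conj g).toMonoidHom.comp ι) ((MulAut.conj g).injective.comp hι)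
  rw [MonoidHom.range_comp, ← Subgroup.map_map, hr, map_conj_eq_cj, map_conj_eq_cj, e,
    cj_eq_of_normal] at h2
  exact h2.main hidx H x

end CF.Opp
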