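import Cfsg.Agent.Fgs1.FGrp
import Cfsg.Agent.Mx23.Bw

/-! Normal subgroups with two `G`-class sizes containing a non-central Sylow subgroup. -/

set_option autoImplicit false
set_option linter.unusedSectionVars false

namespace CF.Tc
open Subgroup CF.BG CF.Fgs1
open scoped commutatorElement MatrixGroups

variable {G : Type*} [Group G] [Finite G] {r : ℕ}

/-- every centralizer has order divisible by `r` -/
def Kr (r : ℕ) (G : Type*) [Group G] : Prop := ∀ y : G, r ∣ ♯(𝐂₁ y)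

theorem Kr.congr {H : Type*} [Group H] (e : G ≃* H) (h : Kr r G) : Kr r H := fun y => by
  have := h (e.symm y)
  rwa [← card_cent1_congr e, e.apply_symm_apply] at this

theorem Kr.not_spec (k : Kr r G) (hr : r.Prime) (h : ∀ x : G, orderOf x ∣ 4 ∨ Odd (orderOf x))
    {s : ℕ} (hs : s.Prime) (os : Odd s) (d : 2 * s ∣ Nat.card G) : False := by
  rw [← card_top'] at d
  obtain ⟨y, -, oy⟩ := exists_mem_orderOf_eq hs ((dvd_mul_left s 2).trans d)
  obtain ⟨z, -, oz⟩ := exists_mem_orderOf_eq Nat.prime_two ((dvd_mul_right 2 s).trans d)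
  have key : ∀ t, t.Prime → Odd t → ∀ g : G, orderOf g ≠ 2 * t := fun t ht ot g e => by
    rcases h g with k | k <;> rw [e] at k
    · have h1 : t ∣ 2 := (Nat.mul_dvd_mul_iff_left two_pos).1 k
      rw [(Nat.prime_dvd_prime_iff_eq ht Nat.prime_two).1 h1] at ot
      exact absurd ot (by decide)
    · exact k.not_two_dvd_nat (dvd_mul_right 2 t)
  rcases hr.eq_two_or_odd' with rfl | o
  · exact not_dvd_cent hr (oy ▸ os.coprime_two_left) (fun g => oy ▸ key s hs os g) (k y)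
  · exact not_dvd_cent hr (oz ▸ o.coprime_two_right)
      (fun g => by rw [oz, mul_comm]; exact key r hr o g) (k z)

open CF.Classical in
theorem not_Kr_of_isL2 {Γ F k : Type*} [Group Γ] [Field F] [Field k] [Algebra F k]
    [MulAction Γ (OnePoint k)] {φ : Γ →* PGL(2, F)} (L : IsL2 φ k) [IsKlein Γ (OnePoint k)]
    [Finite F] (h : 3 < Nat.card F) (hr : r.Prime) : ¬ Kr r Γ := by
  intro K
  have d1 := L.index_dvd.trans (Nat.gcd_dvd_right _ _)
  have d2 := L.index_le_two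
  have d0 := L.index_pos
  obtain ⟨a, ha⟩ := d1
  have e2 : (a + 2 / φ.range.index) * φ.range.index = Nat.card F + 1 := by
    interval_cases φ.range.index <;> omega
  obtain ⟨y, oy, cy⟩ := L.exists_card_centralizer (Or.inr e2) dvd_rfl
    (by interval_cases φ.range.index <;> omega)
  obtain ⟨z, hz⟩ := L.exists_isUnip OnePoint.infty
  rw [if_neg (by interval_cases φ.range.index <;> omega)] at cy
  have h1 := K y
  have h2 := K z
  rw [cy] at h1
  rw [L.card_centralizer_of_isUnip hz] at h2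
  have h3 : r ∣ Nat.card F + 1 := e2 ▸ h1.mul_right _
  exact hr.not_dvd_one ((Nat.dvd_add_right h2).1 h3)

theorem not_Kr_sz (h : Cfsg.Lie.IsoSuzuki G) (hr : r.Prime) : ¬ Kr r G := by
  intro K
  obtain ⟨F, _, _, m, hm, hF, ⟨e⟩⟩ := h
  have h8 : 2 ^ 3 ≤ 2 ^ (2 * m + 1) := Nat.pow_le_pow_right two_pos (by omega)
  have ev : 2 ∣ 2 ^ (2 * m + 1) := dvd_pow_self 2 (by omega)
  have c := CIT.card_sz hF
  have s := CIT.sz_order_cases hF
  generalize 2 ^ (2 * m + 1) = q at h8 ev c s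
  obtain ⟨n, rfl⟩ : ∃ n, q = 2 * n + 2 := ⟨q / 2 - 1, by omega⟩
  rw [show 2 * n + 2 - 1 = 2 * n + 1 from rfl] at c s
  obtain ⟨t, ht, dt⟩ := Nat.exists_prime_and_dvd (n := 2 * n + 1) (by omega)
  refine (K.congr e).not_spec hr (fun x => (s x).imp_right fun k => ?_) ht
    (Odd.of_dvd_nat ⟨n, rfl⟩ dt) ?_
  · exact k.elim (Odd.of_dvd_nat ⟨n, rfl⟩) (Odd.of_dvd_nat ⟨2 * (n + 1) ^ 2, by ring⟩)
  · rw [c]
    exact (mul_dvd_mul (⟨2 * (n + 1) ^ 2, by ring⟩ : 2 ∣ (2 * n + 2) ^ 2) dt).mul_right _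

theorem Kr.exists (k : Kr r G) (hr : r.Prime) (y : G) : ∃ x, x * y = y * x ∧ orderOf x = r := by
  obtain ⟨x, hx, ox⟩ := exists_mem_orderOf_eq hr (k y)
  exact ⟨x, mem_cent1.1 hx, ox⟩

theorem Kr.not_ccn (k : Kr r G) (hr : r.Prime) {K : Subgroup G} (c : CCN K) : False := by
  have cop := coprime_of_cc c.2.2.2
  rw [relIndex_top_right] at cop
  have := normalIn_top.1 c.1
  obtain ⟨x, hx, x1⟩ := exists_mem_ne_one c.2.1
  have d : r ∣ ♯K := (k x).trans (card_dvd (c.2.2.2 x hx x1))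
  obtain ⟨s, hs, ds⟩ := Nat.exists_prime_and_dvd (fun e => c.2.2.1 (index_eq_one.1 e))
  obtain ⟨y, -, oy⟩ := exists_mem_orderOf_eq (H := (⊤ : Subgroup G)) hs
    (by rw [card_top']; exact ds.trans K.index_dvd_card)
  obtain ⟨w, hw, ow⟩ := k.exists hr y
  have wK : w ∈ K := CF.Solv.mem_of_coprime_index (ow ▸ cop.coprime_dvd_left d)
  have yK : y ∈ K := c.2.2.2 w wK (ne_one_of_prime hr ow) (mem_cent1.2 hw.symm)
  exact hs.not_dvd_one (cop ▸ Nat.dvd_gcd (oy ▸ orderOf_dvd_card' yK) ds)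

theorem fg_cases (h : FG G) (hr : r.Prime) (k : Kr r (Quo (𝐂 (⊤ : Subgroup G)))) :
    ∃ X : Subgroup G, Abel X ∧ (⁅(⊤ : Subgroup G), ⊤⁆ ≤ 𝐂 (⊤ : Subgroup G) ∨
      ∀ u : G, (orderOf u).Coprime r → u ∈ X) := by
  have nil : ∀ X, FC G X → Nil X := fun _ k => k.abel.nil
  have hs : Sol (⊤ : Subgroup G) := by
    by_contra ns
    rcases h.cases ns with ⟨F, _, _, n, hn, hF, ⟨e⟩⟩ | k' | ⟨F, _, _, -, h3, ⟨⟨e⟩⟩ | ⟨⟨e⟩⟩⟩
    · refine not_Kr_of_isL2 (Classical.isL2_PSL F (AlgebraicClosure F)) ?_ hr (k.congr e)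
      rw [Nat.card_eq_fintype_card, hF]
      exact lt_of_lt_of_le (by norm_num) (Nat.pow_le_pow_right two_pos hn)
    · exact not_Kr_sz k' hr k
    · exact not_Kr_of_isL2 (Classical.isL2_PSL F (AlgebraicClosure F))
        (by rwa [Nat.card_eq_fintype_card]) hr (k.congr e)
    · exact not_Kr_of_isL2 (Classical.isL2_PGL F (AlgebraicClosure F))
        (by rwa [Nat.card_eq_fintype_card]) hr (k.congr e)
  by_cases ha : Abel (⊤ : Subgroup (Quo (𝐂 (⊤ : Subgroup G))))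
  · refine ⟨⊥, abel_bot, Or.inl (commutator_le.2 fun x _ y _ => ?_)⟩
    rw [← qe_eq_one (nZ _), qe_comm (nZ x) (nZ y), commutatorElement_eq_one_iff_mul_comm]
    exact ha (mem_top _) _ (mem_top _)
  have hs' : Sol (⊤ : Subgroup (Quo (𝐂 (⊤ : Subgroup G)))) := by
    refine (hs.qt (𝐂 (⊤ : Subgroup G))).mono fun u _ => ?_
    obtain ⟨x, hx, rfl⟩ := exists_qe u
    exact qe_mem_qt (mem_top x) hx
  rcases h.pt.baer nil (fun X hX e => ha (e ▸ hX.abel)) (hs'.F_ne_bot fun e => ha (e ▸ abel_bot))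
    with ⟨⟨e⟩⟩ | ⟨p, X, hp, hX, n, hg⟩ | ⟨X, -, c⟩ | ⟨p, -, c⟩
  · refine ((k.congr e).not_spec hr (fun x => ?_) Nat.prime_three (by decide) ?_).elim
    · have : ∀ x : Equiv.Perm (Fin 4), x ^ 4 = 1 ∨ x ^ 3 = 1 := by decide +kernel
      exact (this x).imp orderOf_dvd_of_pow_eq_one fun e =>
        Odd.of_dvd_nat (by decide) (orderOf_dvd_of_pow_eq_one e)
    · rw [Nat.card_perm, Nat.card_fin]; decide
  · obtain ⟨x, nx, rfl⟩ := hX
    refine ⟨_, center_abel (𝐂₁ x), Or.inr fun u hu => ?_⟩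
    rw [← qe_mem_qt_iff (nZ u) (Z_le x)]
    by_contra hn
    have u1 := hg _ hn
    obtain ⟨w, hw, ow⟩ := k.exists hr (qe _ u)
    have wp : w ^ p = 1 := by
      by_cases hwX : w ∈ qt (𝐂 (⊤ : Subgroup G)) (𝐙 (𝐂₁ x))
      · have := hg (w * qe _ u) fun e => hn ((Subgroup.mul_mem_cancel_left _ hwX).1 e)
        rwa [Commute.mul_pow hw, u1, mul_one] at this
      · exact hg w hwX
    have rp : r = p := (Nat.prime_dvd_prime_iff_eq hr hp).1 (ow ▸ orderOf_dvd_of_pow_eq_one wp)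
    subst rp
    have d1 : orderOf (qe (𝐂 (⊤ : Subgroup G)) u) ∣ orderOf u :=
      orderOf_dvd_of_pow_eq_one (by rw [← qe_pow (nZ u), pow_orderOf_eq_one, qe_one])
    have := orderOf_eq_one_iff.1
      (Nat.eq_one_of_dvd_coprimes hu d1 (orderOf_dvd_of_pow_eq_one u1))
    exact hn (this ▸ one_mem _)
  · exact (k.not_ccn hr c).elim
  · exact (k.not_ccn hr c).elim

/-- the setting: all non-central elements of `N` have centralizers of order `c` -/
structure Two (r : ℕ) (R N : Subgroup G) (c : ℕ) : Prop where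
  pr : r.Prime
  syl : CF.Transfer.IsSylowIn r R ⊤
  nc : ¬ R ≤ center G
  nn : N.Normal
  le : R ≤ N
  card : ∀ x ∈ N, x ∉ center G → ♯(𝐂₁ x) = c

namespace Two
variable {R N : Subgroup G} {c : ℕ} {x y u : G} (h : Two r R N c)
include h

theorem eq_of_le (hx : x ∈ N) (nx : x ∉ center G) (hy : y ∈ N) (ny : y ∉ center G)
    (l : 𝐂₁ x ≤ 𝐂₁ y) : 𝐂₁ x = 𝐂₁ y :=
  eq_of_le_of_card_ge l ((h.card y hy ny).trans (h.card x hx nx).symm).le

theorem f1 (hx : x ∈ N) (nx : x ∉ center G) (hy : y ∈ N) (e : x * y = y * x)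
    (cop : (orderOf x).Coprime (orderOf y)) : 𝐂₁ x ≤ 𝐂₁ y := by
  have h1 := mem_zpowers_mul_left e cop
  rw [← h.eq_of_le (N.mul_mem hx hy) (fun k => nx (zpowers_le.2 k h1)) hx nx
    (cent1_le_of_mem_zpowers h1)]
  exact cent1_le_of_mem_zpowers (mem_zpowers_mul_right e cop)

theorem le_N {S : Subgroup G} (hS : IsPGroup r S) : S ≤ N := by
  have := Fact.mk h.pr
  have := h.nn
  obtain ⟨g, -, hg⟩ := h.syl.exists_cj_le hS le_top
  have := CF.Transfer.cj_le_iff.1 (hg.trans h.le)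
  rwa [CF.Transfer.cj_eq_of_normal] at this

theorem syl_nc (hy : y ∈ N) (ny : y ∉ center G) {S : Subgroup G}
    (hS : CF.Transfer.IsSylowIn r S (𝐂₁ y)) : ¬ S ≤ center G := by
  have := Fact.mk h.pr
  intro l
  obtain ⟨x, hx, nx⟩ := SetLike.not_le_iff_exists.1 h.nc
  obtain ⟨T, hT⟩ := CF.Transfer.exists_isSylowIn r (𝐂₁ x)
  have e : ♯S = ♯T := by
    have e1 := CF.Solv.card_mul_relIndex hS.le
    have e2 := CF.Solv.card_mul_relIndex hT.le
    obtain ⟨i, hi⟩ := hS.isPGroup.exists_card_eq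
    obtain ⟨j, hj⟩ := hT.isPGroup.exists_card_eq
    rw [h.card y hy ny, hi] at e1
    rw [h.card x (h.le hx) nx, hj] at e2
    have c1 := (h.pr.coprime_iff_not_dvd.2 hS.not_dvd)
    have c2 := (h.pr.coprime_iff_not_dvd.2 hT.not_dvd)
    rw [hi, hj]
    exact Nat.dvd_antisymm
      ((Nat.Coprime.pow_left i c2).dvd_of_dvd_mul_right (by rw [e2, ← e1]; exact dvd_mul_right _ _))
      ((Nat.Coprime.pow_left j c1).dvd_of_dvd_mul_right (by rw [e1, ← e2]; exact dvd_mul_right _ _))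
  have hSR : S ≤ R := h.syl.le_of_normalized hS.isPGroup le_top
    ((le_centralizer_iff.1 (l.trans (center_le_centralizer _))).trans (centralizer_le_normalizer _))
  have h1 : IsPGroup r (S ⊔ zpowers x : Subgroup G) :=
    h.syl.isPGroup.to_le (sup_le hSR (zpowers_le.2 hx))
  have h2 := hT.card_le h1 (sup_le (l.trans (center_le_centralizer _))
    (zpowers_le.2 (self_mem_cent1 x)))
  have h3 := eq_of_le_of_card_ge (le_sup_left : S ≤ S ⊔ zpowers x) (e ▸ h2)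
  exact nx (l (h3 ▸ mem_sup_right (mem_zpowers x)))

theorem f2 (hy : y ∈ N) (ny : y ∉ center G) :
    ∃ x ∈ N, x ∉ center G ∧ x * y = y * x ∧ ∃ k, orderOf x = r ^ k := by
  have := Fact.mk h.pr
  obtain ⟨S, hS⟩ := CF.Transfer.exists_isSylowIn r (𝐂₁ y)
  obtain ⟨x, hx, nx⟩ := SetLike.not_le_iff_exists.1 (h.syl_nc hy ny hS)
  exact ⟨x, h.le_N hS.isPGroup hx, nx, mem_cent1.1 (hS.le hx),
    CF.Transfer.orderOf_eq_pow_of_mem hS.isPGroup hx⟩

theorem f3 (hy : y ∈ N) (ny : y ∉ center G) (cy : (orderOf y).Coprime r) (hu : u ∈ N)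
    (e : u * y = y * u) : 𝐂₁ y ≤ 𝐂₁ u := by
  have := Fact.mk h.pr
  obtain ⟨x, hx, nx, exy, k, hk⟩ := h.f2 hy ny
  have e1 := h.eq_of_le hy ny hx nx (h.f1 hy ny hx exy.symm (hk ▸ cy.pow_right k))
  obtain ⟨a, ha, b, hb, ⟨j, hj⟩, cb, rfl, -⟩ :=
    CF.Transfer.exists_pPart_pPrimePart (p := r) (isOfFinOrder_of_finite u)
  have hu' : zpowers (a * b) ≤ 𝐂₁ y := zpowers_le.2 (mem_cent1.2 e)
  have l1 := h.f1 hy ny (zpowers_le.2 hu ha) (mem_cent1.1 (hu' ha)).symm (hj ▸ cy.pow_right j)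
  have l2 := h.f1 hx nx (zpowers_le.2 hu hb) (mem_cent1.1 (e1 ▸ hu' hb)).symm
    (hk ▸ (cb.symm.pow_left k))
  intro g hg
  exact mem_cent1.2 (((Commute.mul_right (mem_cent1.1 (l1 hg)) (mem_cent1.1 (l2 (e1 ▸ hg))))))

/-- if `r'`-elements of `K` are central then `K ≤ S Z` -/
theorem le_sup {K S : Subgroup G} (hS : CF.Transfer.IsSylowIn r S K)
    (k : ∀ u ∈ K, (orderOf u).Coprime r → u ∈ center G) : K ≤ S ⊔ center G := by
  have := Fact.mk h.pr
  rw [← hS.sup_pRes]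
  exact sup_le_sup_left (CF.Transfer.pRes_le_iff.2 k) _

theorem fg (hx : x ∈ N) (nx : x ∉ center G) (hy : y ∈ N) (ny : y ∉ center G)
    (l : N ⊓ 𝐂₁ x ≤ 𝐂₁ y) : N ⊓ 𝐂₁ y ≤ 𝐂₁ x := by
  have := Fact.mk h.pr
  have exy := mem_cent1.1 (l ⟨hx, self_mem_cent1 x⟩)
  by_cases k : ∀ u ∈ N ⊓ 𝐂₁ y, (orderOf u).Coprime r → u ∈ center G
  · obtain ⟨S, hS⟩ := CF.Transfer.exists_isSylowIn r (𝐂₁ x)
    obtain ⟨T, hT⟩ := CF.Transfer.exists_isSylowIn r (𝐂₁ y)
    have l1 : S ≤ 𝐂₁ y := (le_inf (h.le_N hS.isPGroup) hS.le).trans l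
    have hS' : CF.Transfer.IsSylowIn r S (𝐂₁ y) := ⟨l1, hS.isPGroup, by
      have e1 := CF.Solv.card_mul_relIndex hS.le
      rw [h.card x hx nx, ← h.card y hy ny, ← CF.Solv.card_mul_relIndex l1,
        Nat.mul_right_inj (card_ne_zero' _)] at e1
      exact e1 ▸ hS.not_dvd⟩
    exact (h.le_sup (hS'.of_le (le_inf (h.le_N hS.isPGroup) l1) inf_le_right) k).trans
      (sup_le hS.le (center_le_centralizer _))
  · push Not at k
    obtain ⟨u, hu, cu, nu⟩ := k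
    have e := h.eq_of_le hu.1 nu hy ny (h.f3 hu.1 nu cu hy (mem_cent1.1 hu.2).symm)
    rw [← e]
    exact inf_le_right.trans (h.f3 hu.1 nu cu hx
      (mem_cent1.1 (show x ∈ 𝐂₁ u by rw [e]; exact mem_cent1.2 exy)))

theorem nil_of (k : ∀ u ∈ N, (orderOf u).Coprime r → u ∈ center G) : Nil N := by
  have := Fact.mk h.pr
  have := h.syl.isPGroup.isNilpotent
  have := CF.Solv.isNilpotent_of_isMulCommutative (center G)
  have h1 := CF.Solv.isNilpotent_sup_of_le_centralizer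
    (le_centralizer_iff.1 (center_le_centralizer (R : Set G)))
  exact Nil.mono h1 (h.le_sup (h.syl.of_le h.le le_top) k)

theorem final (k : ∀ u ∈ N, (orderOf u).Coprime r → ∀ v ∈ N, (orderOf v).Coprime r →
    u * v = v * u) (hy : y ∈ N) (ny : y ∉ center G) (cy : (orderOf y).Coprime r) :
    N ≤ 𝐂₁ y := by
  have := Fact.mk h.pr
  have nn := h.nn
  by_contra hn
  have hn' : ∃ g ∈ N, g ∉ 𝐂₁ y ∧ ∃ j, orderOf g = r ^ j := by
    obtain ⟨g, hg, ng⟩ := SetLike.not_le_iff_exists.1 hn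
    obtain ⟨a, ha, b, hb, hj, cb, rfl, -⟩ :=
      CF.Transfer.exists_pPart_pPrimePart (p := r) (isOfFinOrder_of_finite g)
    exact ⟨a, zpowers_le.2 hg ha, fun e => ng (mul_mem e
      (mem_cent1.2 (k b (zpowers_le.2 hg hb) cb y hy cy))), hj⟩
  obtain ⟨g, hg, ng, j, hj⟩ := hn'
  have gz : g ∉ center G := fun e => ng (center_le_centralizer _ e)
  have nC : ∀ a : G, a ∈ 𝐍 (𝐂₁ y) := fun a => by
    have h1 : a * y * a⁻¹ ∉ center G := fun e => ny (by
      simpa [mul_assoc] using (inferInstance : (center G).Normal).conj_mem _ e a⁻¹)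
    have h2 := h.eq_of_le hy ny (nn.conj_mem y hy a) h1 (h.f3 hy ny cy (nn.conj_mem y hy a)
      (k _ (nn.conj_mem y hy a) (by rw [CF.Transfer.orderOf_conj']; exact cy) y hy cy))
    rw [CF.Transfer.mem_normalizer_iff_cj, ← CF.Transfer.centralizer_conj_image a {y},
      Set.image_singleton]
    exact h2.symm
  have nA : ∀ a : G, a ∈ 𝐍 (N ⊓ 𝐂₁ y) := fun a =>
    inf_normalizer_le_normalizer_inf ⟨le_normalizer_of_normal (mem_top a), nC a⟩
  have hA : ∀ u ∈ N ⊓ 𝐂₁ y, 𝐂₁ y ≤ 𝐂₁ u := fun u hu => h.f3 hy ny cy hu.1 (mem_cent1.1 hu.2)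
  obtain ⟨T, hgT, hT⟩ := CF.Transfer.exists_isSylowIn_ge (CF.Transfer.isPGroup_zpowers hj)
    (le_top : zpowers g ≤ ⊤)
  have gT : g ∈ T := hgT (mem_zpowers g)
  obtain ⟨x0, hx0, nx0, e0, i, hi⟩ := h.f2 hy ny
  have x0A : x0 ∈ N ⊓ 𝐂₁ y := ⟨hx0, mem_cent1.2 e0⟩
  have x0T : x0 ∈ T := by
    have h1 := hT.inf_of_normalized (N := N ⊓ 𝐂₁ y) le_top (fun a _ => nA a)
    exact (h1.le_of_normalized (CF.Transfer.isPGroup_zpowers hi) (zpowers_le.2 x0A) (fun a ha =>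
      centralizer_le_normalizer _ (by
        rw [cent_zpowers]; exact hA x0 x0A ha.2.2)) (mem_zpowers x0)).1
  have lcs : ∀ n, CF.Bw.eng g n x0 ∈ T.lowerCentralSeries n := fun n => by
    induction n with
    | zero => exact x0T
    | succ n ih => exact commutator_mem_commutator ih gT
  have ex : ∃ n, CF.Bw.eng g n x0 ∈ center G := by
    have := hT.isPGroup.isNilpotent
    refine ⟨Group.nilpotencyClass T, ?_⟩
    have h1 := lcs (Group.nilpotencyClass T)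
    rw [Subgroup.lowerCentralSeries_eq_bot_of_nilpotencyClass_le le_rfl, mem_bot] at h1
    exact h1 ▸ one_mem _
  classical
  obtain ⟨x, xA, xT, nx, hz⟩ : ∃ x ∈ N ⊓ 𝐂₁ y, x ∈ T ∧ x ∉ center G ∧ ⁅x, g⁆ ∈ center G := by
    have h1 := Nat.find_spec ex
    have h2 := fun m => Nat.find_min ex (m := m)
    generalize Nat.find ex = n at h1 h2
    obtain _ | n := n
    · exact absurd h1 nx0
    · exact ⟨_, CF.Bw.eng_mem (nA g) n x0A, T.lowerCentralSeries_le_self n (lcs n),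
        h2 n n.lt_succ_self, h1⟩
  have ex' := h.eq_of_le hy ny xA.1 nx (hA x xA)
  obtain ⟨l, hl⟩ := CF.Transfer.orderOf_eq_pow_of_mem hT.isPGroup xT
  have key : ∀ a ∈ 𝐂₁ g, (orderOf a).Coprime r → a ∈ 𝐂₁ g ⊓ 𝐂₁ y := by
    intro a ha ca
    refine ⟨ha, ?_⟩
    have xa := CF.Transfer.conj_mem_of_mem_normalizer (nA a) xA
    have ew : ⁅x⁻¹, a⁆ = x⁻¹ * (a * x * a⁻¹) := by rw [commutatorElement_def]; group
    have wA : ⁅x⁻¹, a⁆ ∈ N ⊓ 𝐂₁ y := ew ▸ mul_mem (inv_mem xA) xa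
    have wg : g ∈ 𝐂₁ ⁅x⁻¹, a⁆ := by
      have e1 := mem_cent1.1 ha
      have e2 := mem_center_iff.1 hz
      have e3 : x * g = ⁅x, g⁆ * g * x := by rw [commutatorElement_def]; group
      generalize ⁅x, g⁆ = z at e2 e3
      rw [mem_cent1, ew]
      have e4 : x⁻¹ * (a * x * a⁻¹) * g = x⁻¹ * (a * (x * g) * a⁻¹) := by
        rw [show x⁻¹ * (a * x * a⁻¹) * g = x⁻¹ * (a * x * (a⁻¹ * g)) by group,
          show a⁻¹ * g = g * a⁻¹ by rw [inv_mul_eq_iff_eq_mul, ← mul_assoc, e1]; group]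
        group
      have e5 : g * x⁻¹ = x⁻¹ * z * g := by
        rw [mul_inv_eq_iff_eq_mul, show x⁻¹ * z * g * x = x⁻¹ * (z * g * x) by group, ← e3]; group
      rw [e4, e3, ← mul_assoc g, e5, show a * (z * g * x) * a⁻¹ = a * z * g * x * a⁻¹ by group,
        e2 a, show z * a * g = z * (a * g) by group, e1]
      group
    have wz : ⁅x⁻¹, a⁆ ∈ center G := by
      by_contra nw
      exact ng (h.eq_of_le hy ny wA.1 nw (hA _ wA) ▸ wg)
    have w1 := CF.Bw.comm_eq_one_of_coprime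
      (commutatorElement_eq_one_iff_mul_comm.2 (mem_center_iff.1 wz a).symm) (by
        have c : Commute x⁻¹ (a * x * a⁻¹) :=
          (show Commute x (a * x * a⁻¹) from (mem_cent1.1 (hA x xA xa.2)).symm).inv_left
        rw [ew]
        refine Nat.Coprime.of_dvd_left c.orderOf_mul_dvd_mul_orderOf ?_
        rw [orderOf_inv, CF.Transfer.orderOf_conj', hl]
        exact Nat.Coprime.mul_left (ca.symm.pow_left l) (ca.symm.pow_left l))
    rw [ex']
    exact mem_cent1.2 (Commute.inv_left_iff.1 (commutatorElement_eq_one_iff_commute.1 w1)).symm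
  obtain ⟨m, hm⟩ := CF.Transfer.relIndex_of_pRes_le (CF.Transfer.pRes_le_iff.2 key)
  set D := 𝐂₁ g ⊓ 𝐂₁ y with hD
  have hm' : D.relIndex (𝐂₁ y) = r ^ m := by
    have e1 := CF.Solv.card_mul_relIndex (inf_le_left : D ≤ _)
    rw [h.card g hg gz, ← h.card y hy ny, ← CF.Solv.card_mul_relIndex (inf_le_right : D ≤ _),
      Nat.mul_right_inj (card_ne_zero' _)] at e1
    rw [← e1, hm]
  have l1 : D ⊔ zpowers y ≤ 𝐂₁ y := sup_le inf_le_right (zpowers_le.2 (self_mem_cent1 y))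
  have d1 : D.relIndex (D ⊔ zpowers y) ∣ r ^ m := by
    rw [← hm', ← relIndex_mul_relIndex D _ _ le_sup_left l1]
    exact dvd_mul_right _ _
  have d2 : D.relIndex (D ⊔ zpowers y) ∣ orderOf y := by
    have e1 := CF.Solv.card_sup_dvd_of_le_normalizer (H := D) (N := zpowers y)
      (inf_le_right.trans (by rw [← cent_zpowers]; exact centralizer_le_normalizer _))
    rw [← CF.Solv.card_mul_relIndex (le_sup_left : D ≤ D ⊔ zpowers y), Nat.card_zpowers] at e1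
    exact (Nat.mul_dvd_mul_iff_left (Nat.pos_of_ne_zero (card_ne_zero' _))).1 e1
  have l2 := relIndex_eq_one.1 (Nat.eq_one_of_dvd_coprimes (cy.pow_right m) d2 d1)
  exact ng (mem_cent1.2 (mem_cent1.1 (l2 (mem_sup_right (mem_zpowers y))).1).symm)

theorem nil : Nil N := by
  have := Fact.mk h.pr
  by_contra hn
  have hZ : ∀ z ∈ N, N ≤ 𝐂₁ z → z ∈ center G := by
    intro z hz l
    by_contra nz
    refine hn (h.nil_of fun u hu cu => ?_)
    by_contra nu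
    have e := h.eq_of_le hu nu hz nz (h.f3 hu nu cu hz (mem_cent1.1 (l hu)).symm)
    exact hn (Abel.nil fun a ha => mem_centralizer_iff.2 fun b hb =>
      (mem_cent1.1 (h.f3 hu nu cu ha (mem_cent1.1 (e ▸ l ha)) (e ▸ l hb))))
  have hc : ∀ x : N, x ∈ 𝐂 (⊤ : Subgroup N) ↔ (x : G) ∈ center G := fun x => by
    rw [mem_cent_top_iff]
    exact ⟨fun k => hZ x x.2 (le_cent1_iff.2 k), fun k => center_le_centralizer _ k⟩
  have hf : Fgs1.FG N := fun x y nx ny l => by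
    rw [hc] at nx ny
    have l' := map_mono (f := N.subtype) l
    rw [cent1_map, cent1_map] at l'
    intro u hu
    exact mem_cent1.2 (Subtype.ext (mem_cent1.1 (h.fg x.2 nx y.2 ny (l'.trans inf_le_right)
      ⟨u.2, mem_cent1.2 (congrArg Subtype.val (mem_cent1.1 hu))⟩)))
  have k1 : ∀ y : N, y ∉ 𝐂 (⊤ : Subgroup N) → r ∣ ♯(𝐂₁ (qe (𝐂 (⊤ : Subgroup N)) y)) := by
    intro y ny
    obtain ⟨x, hx, nx, e, j, hj⟩ := h.f2 y.2 ((hc y).not.1 ny)
    have x1 : qe (𝐂 (⊤ : Subgroup N)) ⟨x, hx⟩ ≠ 1 := fun k =>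
      nx ((hc ⟨x, hx⟩).1 ((qe_eq_one (nZ _)).1 k))
    have d : orderOf (qe (𝐂 (⊤ : Subgroup N)) ⟨x, hx⟩) ∣ r ^ j :=
      orderOf_dvd_of_pow_eq_one (by
        rw [← qe_pow (nZ _), ← hj, ← orderOf_mk x hx, pow_orderOf_eq_one, qe_one])
    obtain ⟨i, -, hi⟩ := (Nat.dvd_prime_pow h.pr).1 d
    refine Dvd.dvd.trans ?_ (orderOf_dvd_card' (x := qe (𝐂 (⊤ : Subgroup N)) ⟨x, hx⟩)
      (mem_cent1.2 ?_))
    · rw [hi]
      exact dvd_pow_self r fun e => x1 (orderOf_eq_one_iff.1 (by rw [hi, e, pow_zero]))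
    · rw [← qe_mul (nZ _) (nZ _), ← qe_mul (nZ _) (nZ _)]
      exact congrArg _ (Subtype.ext e)
  have k2 : Kr r (Quo (𝐂 (⊤ : Subgroup N))) := fun y => by
    obtain ⟨y, -, rfl⟩ := exists_qe y
    by_cases ny : y ∈ 𝐂 (⊤ : Subgroup N)
    · obtain ⟨x, hx, nx⟩ := SetLike.not_le_iff_exists.1 h.nc
      refine (k1 ⟨x, h.le hx⟩ ((hc _).not.2 nx)).trans (card_dvd fun a _ => ?_)
      rw [qe_of_mem ny, mem_cent1, mul_one, one_mul]
    · exact k1 y ny
  obtain ⟨X, aX, k | k⟩ := fg_cases hf h.pr k2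
  · have := CF.Solv.isNilpotent_of_commutator_le_centralizer k
    exact hn (nilpotent_of_mulEquiv (topEquiv (G := N)))
  · refine hn (h.nil_of fun u hu cu => by_contra fun nu => nu (hZ u hu (h.final ?_ hu nu cu)))
    intro a ha ca b hb cb
    exact congrArg Subtype.val (aX (k ⟨b, hb⟩ (by rwa [orderOf_mk])) _
      (k ⟨a, ha⟩ (by rwa [orderOf_mk])))

end Two

end CF.Tc
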