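import Cfsg.Agent.Mx23.U5

/-! Groups of order 320 with derived subgroup of order 64. -/

namespace CF.Mx23.U5

open Subgroup CF.Suz
open scoped commutatorElement IsMulCommutative

theorem card_mod {A : Type*} [Group A] [Finite A] (ξ : A →* A) (h5 : ∀ a, ξ (ξ (ξ (ξ (ξ a)))) = a)
    (hfp : ∀ a, ξ a = a → a = 1) (B : Subgroup A) (hB : ∀ a ∈ B, ξ a ∈ B) : Nat.card B % 5 = 1 := by
  classical
  haveI : Fintype B := Fintype.ofFinite _
  haveI : Fact (Nat.Prime 5) := ⟨by norm_num⟩
  let f : Function.End B := fun b => ⟨ξ b, hB _ b.2⟩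
  have h := Equiv.Perm.card_fixedPoints_modEq (f := f) (p := 5) (n := 1) (by
    funext b; exact Subtype.ext (h5 b))
  have h1 : Fintype.card (Function.fixedPoints f) = 1 := by
    rw [Fintype.card_eq_one_iff]
    exact ⟨⟨1, Subtype.ext (map_one ξ)⟩, fun b => Subtype.ext (Subtype.ext
      (hfp _ (congrArg Subtype.val b.2)))⟩
  rw [h1] at h
  rw [Nat.card_eq_fintype_card]; exact h

theorem fix_four {A : Type*} [Group A] [Finite A] (ξ : A →* A) (h5 : ∀ a, ξ (ξ (ξ (ξ (ξ a)))) = a)
    (B : Subgroup A) (hB : ∀ a ∈ B, ξ a ∈ B) (h4 : Nat.card B = 4) : ∀ a ∈ B, ξ a = a := by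
  classical
  haveI : Fintype B := Fintype.ofFinite _
  haveI : Fact (Nat.Prime 5) := ⟨by norm_num⟩
  let f : Function.End B := fun b => ⟨ξ b, hB _ b.2⟩
  have h := Equiv.Perm.card_fixedPoints_modEq (f := f) (p := 5) (n := 1) (by
    funext b; exact Subtype.ext (h5 b))
  rw [← Nat.card_eq_fintype_card, h4] at h
  have h1 : Fintype.card (Function.fixedPoints f) ≤ Fintype.card B := Fintype.card_subtype_le _
  have h2 : Fintype.card (Function.fixedPoints f) = Fintype.card B := by
    rw [← Nat.card_eq_fintype_card (α := B), h4] at h1 ⊢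
    unfold Nat.ModEq at h; omega
  have h3 := (set_fintype_card_eq_univ_iff _).1 h2
  intro a ha
  have : (⟨a, ha⟩ : B) ∈ Function.fixedPoints f := by rw [h3]; trivial
  exact congrArg Subtype.val this

section
variable {G : Type*} [Group G] [Finite G] (hG : Nat.card G = 320)
  (hD : Nat.card (commutator G) = 64) {σ : G} (hσ : orderOf σ = 5)
include hG hD hσ

omit hG in
theorem pow_mem_comm {k : ℕ} (hk : σ ^ k ∈ commutator G) : σ ^ k = 1 := by
  have h1 : orderOf (σ ^ k) ∣ 64 := hD ▸ orderOf_dvd_natCard _ hk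
  have h2 : orderOf (σ ^ k) ∣ 5 := hσ ▸ orderOf_pow_dvd k
  exact orderOf_eq_one_iff.1 (Nat.eq_one_of_dvd_coprimes (by norm_num) h1 h2)

theorem sup_top : commutator G ⊔ zpowers σ = ⊤ := by
  have h1 : 64 ∣ Nat.card (commutator G ⊔ zpowers σ : Subgroup G) := hD ▸ card_dvd_of_le le_sup_left
  have h2 : 5 ∣ Nat.card (commutator G ⊔ zpowers σ : Subgroup G) := by
    rw [← hσ, ← Nat.card_zpowers]; exact card_dvd_of_le le_sup_right
  have h3 := Nat.Coprime.mul_dvd_of_dvd_of_dvd (by norm_num) h1 h2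
  exact eq_top_of_le_card _ (hG ▸ Nat.le_of_dvd Nat.card_pos h3)

theorem st_G (hZ : IsKleinFour (center (commutator G))) :
    St (commutator G) (MulAut.conjNormal σ) := by
  haveI : Fact (Nat.Prime 2) := ⟨Nat.prime_two⟩
  set D := commutator G with hDdef
  set φ : MulAut D := MulAut.conjNormal σ with hφdef
  have hφ : ∀ x : D, ((φ x : D) : G) = σ * x * σ⁻¹ := fun x => rfl
  have top : ∀ H : Subgroup G, D ≤ H → σ ∈ H → H = ⊤ := fun H h1 h2 =>
    eq_top_iff.2 (sup_top hG hD hσ ▸ sup_le h1 (zpowers_le.2 h2))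
  have five : ∀ g, φ (φ (φ (φ (φ g)))) = g := fun g => by
    have : φ ^ 5 = 1 := by rw [hφdef, ← map_pow, ← hσ, pow_orderOf_eq_one, map_one]
    simpa [pow_succ] using congrArg (fun ψ : MulAut D => ψ g) this
  let ξ : Abelianization D →* Abelianization D := Abelianization.map φ.toMonoidHom
  have hξ : ∀ x, ξ (Abelianization.of x) = Abelianization.of (φ x) := fun x => rfl
  have osurj : ∀ a : Abelianization D, ∃ x, Abelianization.of x = a := fun a =>
    QuotientGroup.mk_surjective a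
  have ξ5 : ∀ a, ξ (ξ (ξ (ξ (ξ a)))) = a := fun a => by
    obtain ⟨x, rfl⟩ := osurj a; simp only [hξ, five]
  let δ : Abelianization D →* Abelianization D := ξ / MonoidHom.id _
  have hδ : ∀ a, δ a = ξ a / a := fun a => rfl
  let K : Subgroup G := (δ.range.comap Abelianization.of).map D.subtype
  have hK : ∀ x : D, (x : G) ∈ K ↔ Abelianization.of x ∈ δ.range := fun x =>
    mem_map_iff_mem D.subtype_injective
  have hKD : ∀ k ∈ K, k ∈ D := by rintro _ ⟨x, -, rfl⟩; exact x.2
  haveI hKn : K.Normal := by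
    rw [← normalizer_eq_top_iff]
    apply top
    · intro d hd
      refine mem_normalizer_fintype (fun k hk => ?_)
      have := (hK ⟨k, hKD k hk⟩).1 hk
      refine (hK (⟨d, hd⟩ * ⟨k, hKD k hk⟩ * ⟨d, hd⟩⁻¹)).2 ?_
      rwa [map_mul, map_mul, map_inv, mul_inv_cancel_comm]
    · refine mem_normalizer_fintype (fun k hk => ?_)
      have := (hK ⟨k, hKD k hk⟩).1 hk
      refine (hK (φ ⟨k, hKD k hk⟩)).2 ?_
      rw [← hξ, ← div_mul_cancel (ξ _) (Abelianization.of ⟨k, hKD k hk⟩)]
      exact mul_mem ⟨_, rfl⟩ this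
  have c1 : ∀ d ∈ D, ∀ g : G, (g : G ⧸ K) * d = d * g := by
    intro d hd g
    have := top ((centralizer {(d : G ⧸ K)}).comap (QuotientGroup.mk' K)) (fun d' hd' => by
      rw [mem_comap, mem_centralizer_singleton_iff]
      show ((d' * d : G) : G ⧸ K) = (d * d' : G)
      rw [QuotientGroup.eq]
      refine (hK ((⟨d', hd'⟩ * ⟨d, hd⟩)⁻¹ * (⟨d, hd⟩ * ⟨d', hd'⟩))).2 ?_
      rw [map_mul, map_inv, map_mul, map_mul, mul_comm (Abelianization.of (⟨d', hd'⟩ : D)),
        inv_mul_cancel]
      exact one_mem _) (by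
      rw [mem_comap, mem_centralizer_singleton_iff]
      show ((σ * d : G) : G ⧸ K) = (d * σ : G)
      rw [eq_comm, ← mul_inv_eq_one, ← QuotientGroup.mk_inv, ← QuotientGroup.mk_mul,
        QuotientGroup.eq_one_iff]
      have e : d * σ * (σ * d)⁻¹ = ((⟨d, hd⟩ * (φ ⟨d, hd⟩)⁻¹ : D) : G) := by
        simp [hφ, mul_assoc]
      rw [e, hK, map_mul, map_inv, ← hξ]
      exact ⟨(Abelianization.of ⟨d, hd⟩)⁻¹, by rw [hδ, map_inv]; simp [mul_comm]⟩)
    have hg : g ∈ (centralizer {(d : G ⧸ K)}).comap (QuotientGroup.mk' K) := this ▸ mem_top g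
    exact mem_centralizer_singleton_iff.1 hg
  have c2 : ∀ g : G, (g : G ⧸ K) * σ = σ * g := by
    intro g
    have := top ((centralizer {(σ : G ⧸ K)}).comap (QuotientGroup.mk' K)) (fun d hd =>
      mem_centralizer_singleton_iff.2 (c1 d hd σ).symm) (mem_centralizer_singleton_iff.2 rfl)
    have hg : g ∈ (centralizer {(σ : G ⧸ K)}).comap (QuotientGroup.mk' K) := this ▸ mem_top g
    exact mem_centralizer_singleton_iff.1 hg
  have hDK : D ≤ K := by
    rw [hDdef, ← Normal.quotient_commutative_iff_commutator_le]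
    have := top ((center (G ⧸ K)).comap (QuotientGroup.mk' K)) (fun d hd => mem_center_iff.2 fun y => by
      obtain ⟨g, rfl⟩ := QuotientGroup.mk_surjective y; exact c1 d hd g) (mem_center_iff.2 fun y => by
      obtain ⟨g, rfl⟩ := QuotientGroup.mk_surjective y; exact c2 g)
    refine ⟨⟨fun a b => ?_⟩⟩
    obtain ⟨g, rfl⟩ := QuotientGroup.mk_surjective b
    have hg : g ∈ (center (G ⧸ K)).comap (QuotientGroup.mk' K) := this ▸ mem_top g
    exact mem_center_iff.1 hg a
  have δsurj : Function.Surjective δ := fun a => by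
    obtain ⟨x, rfl⟩ := osurj a; exact (hK x).1 (hDK x.2)
  have δinj := Finite.injective_iff_surjective.2 δsurj
  have hfp : ∀ a, ξ a = a → a = 1 := fun a ha =>
    δinj (by rw [hδ, ha, div_self', map_one])
  have hP : IsPGroup 2 D := IsPGroup.of_card (n := 6) hD
  have hmul : Nat.card (Abelianization D) * Nat.card (commutator D) = 64 :=
    hD ▸ (card_eq_card_quotient_mul_card_subgroup (commutator D)).symm
  have hA : Nat.card (Abelianization D) = 16 := by
    have h1 := card_mod ξ ξ5 hfp ⊤ (fun a _ => mem_top _)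
    rw [card_top] at h1
    haveI : Nontrivial D := Finite.one_lt_card_iff_nontrivial.1 (by rw [hD]; norm_num)
    haveI := hP.isNilpotent
    have h2 : Nat.card (commutator D) ≠ 64 := fun e =>
      (Group.IsSolvable.commutator_lt_top_of_nontrivial D).ne (eq_top_of_card_eq _ (e.trans hD.symm))
    have h3 : Nat.card (Abelianization D) ∣ 2 ^ 6 := Dvd.intro _ hmul
    obtain ⟨i, hi, e⟩ := (Nat.dvd_prime_pow Nat.prime_two).1 h3
    rw [e] at h1 hmul ⊢
    interval_cases i <;> omega
  have h4 : Nat.card (commutator D) = 4 := by rw [hA] at hmul; omega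
  have hφc : ∀ x ∈ commutator D, φ x ∈ commutator D := fun x hx =>
    (characteristic_iff_le_comap.1 inferInstance φ) hx
  have hfix := fix_four φ.toMonoidHom five _ hφc h4
  have oeq : ∀ x y : D, Abelianization.of x = Abelianization.of y ↔ x⁻¹ * y ∈ commutator D :=
    fun x y => QuotientGroup.eq
  have hcz : commutator D = center D := by
    refine eq_of_le_of_card_ge (fun x hx => mem_center_iff.2 fun y => ?_) (by rw [h4, hZ.card_four])
    obtain ⟨a, ha⟩ := δsurj (Abelianization.of y)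
    obtain ⟨g, rfl⟩ := osurj a
    rw [hδ, hξ, ← map_div, oeq] at ha
    have hab := IsPGroup.isMulCommutative_of_card_eq_prime_sq (p := 2) (G := commutator D) h4
    have e1 : (φ g / g)⁻¹ * y * x = x * ((φ g / g)⁻¹ * y) :=
      congrArg Subtype.val (hab.is_comm.comm (⟨_, ha⟩ : commutator D) ⟨x, hx⟩)
    have e2 : φ (g⁻¹ * x * g) = g⁻¹ * x * g :=
      hfix _ (by simpa using (inferInstance : (commutator D).Normal).conj_mem x hx g⁻¹)
    have e3 : φ x = x := hfix x hx
    rw [map_mul, map_mul, map_inv, e3] at e2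
    have e4 : (φ g / g) * x = x * (φ g / g) := by
      rw [div_eq_mul_inv]
      calc φ g * g⁻¹ * x = φ g * (g⁻¹ * x * g) * g⁻¹ := by group
        _ = _ := by rw [← e2]; group
    calc y * x = (φ g / g) * ((φ g / g)⁻¹ * y * x) := by group
      _ = _ := by rw [e1, ← mul_assoc, e4]; group
  have hsq : ∀ a : Abelianization D, a ^ 2 = 1 := by
    let Ω := (powMonoidHom 2 : Abelianization D →* Abelianization D).ker
    have h1 := card_mod ξ ξ5 hfp Ω (fun a ha => by
      show ξ a ^ 2 = 1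
      rw [← map_pow, show a ^ 2 = 1 from ha, map_one])
    have h2 : Nat.card Ω ∣ 2 ^ 4 := by
      have := card_subgroup_dvd_card Ω
      rwa [hA] at this
    obtain ⟨u, hu⟩ := exists_prime_orderOf_dvd_card' (G := Abelianization D) 2 (by rw [hA]; norm_num)
    have h3 : 2 ∣ Nat.card Ω := hu ▸ orderOf_dvd_natCard Ω (show u ^ 2 = 1 by
      rw [← hu, pow_orderOf_eq_one])
    obtain ⟨i, hi, e⟩ := (Nat.dvd_prime_pow Nat.prime_two).1 h2
    have h5 : Nat.card Ω = 16 := by
      rw [e] at h1 h3 ⊢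
      interval_cases i <;> omega
    have : Ω = ⊤ := eq_top_of_card_eq _ (h5.trans hA.symm)
    intro a
    exact (this ▸ mem_top a : a ∈ Ω)
  refine ⟨hD, hZ.card_four, fun z hz => ?_, fun z hz => hfix z (hcz ▸ hz), fun g => ?_, five,
    fun g hg => ?_, fun B hB => ?_⟩
  · exact congrArg Subtype.val (hZ.mul_self (⟨z, hz⟩ : center D))
  · rw [← hcz]
    exact (QuotientGroup.eq_one_iff (g * g)).1 (by
      have := hsq (Abelianization.of g); rwa [pow_two] at this)
  · rw [← hcz] at hg ⊢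
    exact (QuotientGroup.eq_one_iff g).1 (hfp _ ((oeq _ _).2 hg).symm)
  · rw [← hcz, _root_.commutator_def D, commutator_le]
    intro a _ b _
    have : ⁅a, b⁆ = (a * a) * ((a⁻¹ * b) * (a⁻¹ * b)) * (b⁻¹ * b⁻¹) := by
      rw [commutatorElement_def]; group
    rw [this]
    exact mul_mem (mul_mem (hB _) (hB _)) (hB _)

end

theorem quot_equiv {A B : Type*} [Group A] [Group B] (ρ : A →* B) (hρ : Function.Injective ρ)
    (h1 : ∀ g ∈ center A, ρ g ∈ center B) (h2 : ∀ g, ∃ z ∈ center B, g * z ∈ ρ.range) :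
    Nonempty (A ⧸ center A ≃* B ⧸ center B) := by
  let ψ := (QuotientGroup.mk' (center B)).comp ρ
  have hker : center A = ψ.ker := by
    ext g
    rw [MonoidHom.mem_ker]
    show _ ↔ ((ρ g : B) : B ⧸ center B) = 1
    rw [QuotientGroup.eq_one_iff]
    exact ⟨h1 g, fun hg => mem_center_iff.2 fun x => hρ (by
        rw [map_mul, map_mul]; exact mem_center_iff.1 hg _)⟩
  have hsurj : Function.Surjective ψ := by
    intro y
    obtain ⟨g, rfl⟩ := QuotientGroup.mk_surjective y
    obtain ⟨z, hz, a, ha⟩ := h2 g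
    refine ⟨a, ?_⟩
    show ((ρ a : B) : B ⧸ center B) = _
    rw [ha, QuotientGroup.mk_mul, (QuotientGroup.eq_one_iff _).2 hz, mul_one]
  exact ⟨(QuotientGroup.quotientMulEquivOfEq hker).trans
    (QuotientGroup.quotientKerEquivOfSurjective ψ hsurj)⟩

open CF.Bender.PU CF.Geom Cfsg

section
variable {E : Type*} [Field E] [StarRing E]

theorem cm_equiv {C C' : Type*} [Group C] [Group C'] (M : CM E C) (M' : CM E C') :
    Nonempty (C ≃* C') := by
  let φ : Mu E →* MulAut (UT E) := (MulDistribMulAction.toMulAut Eˣ (UT E)).comp (Mu E).subtype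
  have key : ∀ {C : Type _} [Group C] (M : CM E C), Nonempty (UT E ⋊[φ] Mu E ≃* C) := by
    intro C _ M
    let f : UT E ⋊[φ] Mu E →* C := SemidirectProduct.lift M.u M.d (fun c => by
      ext1 x; exact (M.conj c x).symm)
    have hf : ∀ x, f x = M.u x.left * M.d x.right := fun x => rfl
    refine ⟨MulEquiv.ofBijective f ⟨(injective_iff_map_eq_one f).2 fun x hx => ?_, fun g => ?_⟩⟩
    · obtain ⟨h1, h2⟩ := M.inj _ _ ((hf x).symm.trans hx)
      exact SemidirectProduct.ext h1 h2
    · obtain ⟨x, c, h⟩ := M.surj g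
      exact ⟨⟨x, c⟩, h.symm⟩
  have key' : Nonempty (UT E ⋊[φ] Mu E ≃* C') := by
    let f : UT E ⋊[φ] Mu E →* C' := SemidirectProduct.lift M'.u M'.d (fun c => by
      ext1 x; exact (M'.conj c x).symm)
    have hf : ∀ x, f x = M'.u x.left * M'.d x.right := fun x => rfl
    refine ⟨MulEquiv.ofBijective f ⟨(injective_iff_map_eq_one f).2 fun x hx => ?_, fun g => ?_⟩⟩
    · obtain ⟨h1, h2⟩ := M'.inj _ _ ((hf x).symm.trans hx)
      exact SemidirectProduct.ext h1 h2
    · obtain ⟨x, c, h⟩ := M'.surj g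
      exact ⟨⟨x, c⟩, h.symm⟩
  exact ⟨(key M).some.symm.trans key'.some⟩

variable [Fintype E] [CharP E 2] (hE : Fintype.card E = 4 ^ 2) (hs : ∀ x : E, star x = x ^ 4)
include hE hs

omit [CharP E 2] in
theorem card_Mu : Nat.card (Mu E) = 5 :=
  card_normOne (σ := starRingEnd E) hE hs

theorem st_UT {c : Mu E} (hc : c ≠ 1) :
    St (UT E) (((MulDistribMulAction.toMulAut Eˣ (UT E)).comp (Mu E).subtype) c) := by
  have hφ : ∀ x, ((MulDistribMulAction.toMulAut Eˣ (UT E)).comp (Mu E).subtype) c x =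
      (c : Eˣ) • x := fun x => rfl
  have hZ := fun x => UT.mem_center hE hs (x := x)
  have two : (2 : E) = 0 := CharTwo.two_eq_zero
  refine ⟨UT.card hE hs, UT.card_center hE hs, fun z hz => sq_iff.2 ((hZ z).1 hz), fun z hz => ?_,
    fun g => (hZ _).2 (by simp [CharTwo.add_self_eq_zero]), fun g => ?_, fun g hg => ?_,
    fun B hB z hz => ?_⟩
  · rw [hφ]; ext
    · simp [(hZ z).1 hz]
    · simp [Mu.h c]
  · have h5 : c ^ 5 = 1 := by rw [← card_Mu hE hs]; exact pow_card_eq_one'
    have h5' : (c : Eˣ) * (c * (c * (c * c))) = 1 := by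
      have := congrArg Subtype.val h5
      simpa [pow_succ, mul_assoc] using this
    simp only [hφ, ← mul_smul, h5', one_smul]
  · rw [hφ, hZ] at hg
    rw [hZ]
    simp only [UT.mul_e, UT.inv_e, UT.smul_e] at hg
    by_contra h0
    apply hc
    ext
    exact mul_right_cancel₀ h0 (by simpa [neg_add_eq_zero, eq_comm] using hg)
  · have h0 := (hZ z).1 hz
    have hy : star z.y = z.y := by
      have := z.h
      rwa [h0, mul_zero, CharTwo.add_eq_zero, eq_comm] at this
    obtain ⟨s, hs'⟩ := exists_sq z.y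
    have c1 : star s = s := by
      have := congrArg star hs'
      rw [hy, hs', star_pow] at this
      grind
    obtain ⟨x, hx⟩ := UT.exists_e hE hs s
    have : z = x * x := by
      ext
      · simp [h0, CharTwo.add_self_eq_zero]
      · simp [CharTwo.add_self_eq_zero, hx, c1, hs', pow_two]
    rw [this]; exact hB x

theorem cm_G {G : Type*} [Group G] [Finite G] (hG : Nat.card G = 320)
    (hD : Nat.card (commutator G) = 64) (hZ : IsKleinFour (center (commutator G))) :
    Nonempty (CM E G) := by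
  haveI : Fact (Nat.Prime 5) := ⟨by norm_num⟩
  obtain ⟨σ, hσ⟩ := exists_prime_orderOf_dvd_card' (G := G) 5 (by rw [hG]; norm_num)
  have h5 := card_Mu hE hs
  obtain ⟨c, hc⟩ := exists_prime_orderOf_dvd_card' (G := Mu E) 5 (by rw [h5])
  have hgen : ∀ x, x ∈ zpowers c := fun x => by
    rw [eq_top_of_card_eq (zpowers c) (by rw [Nat.card_zpowers, hc, h5])]; trivial
  have hc1 : c ≠ 1 := fun e => by rw [e, orderOf_one] at hc; omega
  let d : Mu E →* G := monoidHomOfForallMemZpowers hgen (g' := σ) (by rw [hσ, hc])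
  have hd : d c = σ := monoidHomOfForallMemZpowers_apply_gen _ _
  obtain ⟨e, he⟩ := iso (Γ := Mu E) (by rw [h5]; decide)
    ((MulDistribMulAction.toMulAut Eˣ (UT E)).comp (Mu E).subtype)
    ((MulAut.conjNormal : G →* MulAut (commutator G)).comp d) hgen (st_UT hE hs hc1)
    (by rw [MonoidHom.comp_apply, hd]; exact st_G hG hD hσ hZ)
  refine ⟨⟨(commutator G).subtype.comp e.toMonoidHom, d, fun γ x =>
    (congrArg Subtype.val (he γ x)).symm, fun g => ?_, fun x γ k => ?_⟩⟩
  · have hg : g ∈ ((commutator G ⊔ zpowers σ : Subgroup G) : Set G) := by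
      rw [sup_top hG hD hσ]; trivial
    rw [normal_mul] at hg
    obtain ⟨x, hx, _, ⟨k, rfl⟩, rfl⟩ := hg
    exact ⟨e.symm ⟨x, hx⟩, c ^ k, by simp [map_zpow, hd]⟩
  · obtain ⟨n, rfl⟩ := mem_powers_iff_mem_zpowers.2 (hgen γ)
    simp only [map_pow, hd] at k
    have h1 : σ ^ n = 1 := pow_mem_comm hD hσ (by
      rw [eq_inv_of_mul_eq_one_right k]; exact inv_mem (e x).2)
    rw [h1, mul_one] at k
    refine ⟨e.injective (Subtype.ext (by simpa using k)), ?_⟩
    show c ^ n = 1
    rw [← orderOf_dvd_iff_pow_eq_one, hc, ← hσ, orderOf_dvd_iff_pow_eq_one, h1]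

omit [CharP E 2] in
theorem psu_pgu : Nonempty (PSU 3 E 4 ≃* UG (hermSesq (Fin 3) (starRingEnd E)) ⧸ center _) := by
  obtain ⟨σ, h4, h5, h6⟩ := exists_conj hE
  obtain rfl : σ = starRingEnd E := RingHom.ext fun x => (h4 x).trans (hs x).symm
  have hH := isHerm_hermSesq (ι := Fin 3) h5 h6
  have hB := hermSesq_nondegenerate (ι := Fin 3) (starRingEnd E)
  refine quot_equiv (suToUG 3 h4) (suToUG_injective 3 h4) (fun g hg => ?_) (fun g => ?_)
  · obtain ⟨c, hc⟩ := center_su_scalar hH hB (by simp) (suToUG_range 3 h4).ge g hg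
    exact mem_center_of_scalar (ρ := MonoidHom.id _) (fun _ _ k => k) hc
  · have hd := det_UG_norm hB g
    set d := LinearMap.det (g.1 : (Fin 3 → E) →ₗ[E] (Fin 3 → E)) with hdd
    have hd5 : d ^ 5 = 1 := by rw [← hd, h4]; ring
    have hc : starRingEnd E (d ^ 3) * d ^ 3 = 1 := by rw [map_pow, ← mul_pow, hd, one_pow]
    refine ⟨uScal _ hc, mem_center_of_scalar (ρ := MonoidHom.id _) (fun _ _ k => k)
      (uScal_apply hc), ?_⟩
    rw [suToUG_range, mem_suSub, Subgroup.coe_mul, LinearEquiv.coe_toLinearMap_mul, map_mul,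
      det_of_scalar (uScal_apply hc), ← hdd]
    simp only [Module.finrank_fin_fun]
    linear_combination (d ^ 5 + 1) * hd5

end

end CF.Mx23.U5
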